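import Cfsg.Agent.KnownA.Pres4.Sys

/-! The Weyl and torus elements of `Sp₄`. -/

set_option autoImplicit false
set_option linter.unusedSectionVars false

namespace Cfsg.Agent.KnownA.Pres4

open Cfsg.Agent.Forms Matrix
open scoped commutatorElement

variable {F : Type*} [Field F] [Fintype F]

local macro "sp_mem" : tactic => `(tactic|
  (rw [SymplecticGroup.mem_iff]
   ext i j
   rcases i with i | i <;> rcases j with j | j <;> fin_cases i <;> fin_cases j <;>
     simp [mA, mB, mHa, mHb, Matrix.J, Matrix.mul_apply, Matrix.diagonal, Fintype.sum_sum_type, Fin.sum_univ_two,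
       Matrix.one_apply]))

/-- The first Weyl element. -/
def MA : Matrix.symplecticGroup (Fin 2) F := ⟨mA, by sp_mem⟩

/-- The second Weyl element. -/
def MB : Matrix.symplecticGroup (Fin 2) F := ⟨mB, by sp_mem⟩

/-- The first torus element. -/
def MHa (μ : Fˣ) : Matrix.symplecticGroup (Fin 2) F := ⟨mHa μ, by sp_mem⟩

/-- The second torus element. -/
def MHb (μ : Fˣ) : Matrix.symplecticGroup (Fin 2) F := ⟨mHb μ, by sp_mem⟩

theorem coe_MA : (MA : Matrix.symplecticGroup (Fin 2) F).1 = mA := rfl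
theorem coe_MB : (MB : Matrix.symplecticGroup (Fin 2) F).1 = mB := rfl
theorem coe_MHa (μ : Fˣ) : (MHa μ : Matrix.symplecticGroup (Fin 2) F).1 = mHa μ := rfl
theorem coe_MHb (μ : Fˣ) : (MHb μ : Matrix.symplecticGroup (Fin 2) F).1 = mHb μ := rfl

theorem coe_one' : ((1 : Matrix.symplecticGroup (Fin 2) F)).1 = 1 := rfl

theorem MHa_pow (μ : Fˣ) (k : ℕ) : (MHa μ : Matrix.symplecticGroup (Fin 2) F) ^ k = MHa (μ ^ k) := by
  refine Subtype.ext ?_
  rw [SubmonoidClass.coe_pow, coe_MHa, coe_MHa, mHa, mHa, Matrix.diagonal_pow]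
  refine congrArg Matrix.diagonal (funext fun i => ?_)
  rcases i with i | i <;> fin_cases i <;> simp

theorem MHb_pow (μ : Fˣ) (k : ℕ) : (MHb μ : Matrix.symplecticGroup (Fin 2) F) ^ k = MHb (μ ^ k) := by
  refine Subtype.ext ?_
  rw [SubmonoidClass.coe_pow, coe_MHb, coe_MHb, mHb, mHb, Matrix.diagonal_pow]
  refine congrArg Matrix.diagonal (funext fun i => ?_)
  rcases i with i | i <;> fin_cases i <;> simp

theorem MHa_one : (MHa 1 : Matrix.symplecticGroup (Fin 2) F) = 1 := by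
  refine Subtype.ext ?_
  rw [coe_MHa, mHa, coe_one', ← Matrix.diagonal_one]
  refine congrArg Matrix.diagonal (funext fun i => ?_)
  rcases i with i | i <;> fin_cases i <;> simp

theorem MA_inv : (MA : Matrix.symplecticGroup (Fin 2) F)⁻¹ = MA * MA * MA := by
  refine inv_eq_of_mul_eq_one_right (Subtype.ext ?_)
  simp only [Submonoid.coe_mul, coe_MA, coe_one']
  ext i j
  rcases i with i | i <;> rcases j with j | j <;> fin_cases i <;> fin_cases j <;>
    simp [mA, Matrix.mul_apply, Fintype.sum_sum_type, Fin.sum_univ_two, Matrix.one_apply]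

theorem MB_inv : (MB : Matrix.symplecticGroup (Fin 2) F)⁻¹ = MB * MB * MB := by
  refine inv_eq_of_mul_eq_one_right (Subtype.ext ?_)
  simp only [Submonoid.coe_mul, coe_MB, coe_one']
  ext i j
  rcases i with i | i <;> rcases j with j | j <;> fin_cases i <;> fin_cases j <;>
    simp [mB, Matrix.mul_apply, Fintype.sum_sum_type, Fin.sum_univ_two, Matrix.one_apply]

theorem rootU_add (r : Fin 8) (a b : F) : rootU F r (a + b) = rootU F r a * rootU F r b := by
  refine Subtype.ext ?_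
  simp [rootU_val, Submonoid.coe_mul, Matrix.mul_add, Matrix.add_mul, add_smul, rootE_mul_self, add_assoc]

theorem rootU_inv (r : Fin 8) (a : F) : (rootU F r a)⁻¹ = rootU F r (-a) :=
  Subtype.ext (by rw [rootU_inv_val, rootU_val, neg_smul, sub_eq_add_neg])

local macro "sp_eq" : tactic => `(tactic|
  (refine Subtype.ext ?_
   simp only [Submonoid.coe_mul, coe_MA, coe_MB, coe_MHa, coe_MHb, coe_one', rootU_val]
   ext i j
   rcases i with i | i <;> rcases j with j | j <;> fin_cases i <;> fin_cases j <;>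
     simp [mA, mB, mHa, mHb, rootE, Matrix.mul_apply, Matrix.diagonal, Fintype.sum_sum_type, Fin.sum_univ_two,
       Matrix.one_apply, pow_two] <;> (try field_simp) <;> (try ring1)))

set_option maxHeartbeats 4000000 in
theorem torus_rels (μ : Fˣ) :
    (MHa μ : Matrix.symplecticGroup (Fin 2) F) * MHb μ = MHb μ * MHa μ ∧ MHa μ * MA * MHa μ = MA ∧
    MA * MHb μ = MHa μ * MHb μ * MA ∧ MB * MHa μ = MHa μ * MHb μ * MHb μ * MB ∧ MHb μ * MB * MHb μ = MB ∧
    (MA : Matrix.symplecticGroup (Fin 2) F) * MB * (MA * MB) = MB * MA * (MB * MA) := by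
  refine ⟨?_, ?_, ?_, ?_, ?_, ?_⟩
  all_goals sp_eq

theorem weyl_sq (μ : Fˣ) (e : ℕ) (he : (μ : F) ^ e = -1) :
    (MA : Matrix.symplecticGroup (Fin 2) F) * MA = MHa μ ^ e ∧
    (MB : Matrix.symplecticGroup (Fin 2) F) * MB = MHb μ ^ e := by
  rw [MHa_pow, MHb_pow]
  constructor
  all_goals
    refine Subtype.ext ?_
    simp only [Submonoid.coe_mul, coe_MA, coe_MB, coe_MHa, coe_MHb]
    ext i j
    rcases i with i | i <;> rcases j with j | j <;> fin_cases i <;> fin_cases j <;>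
      simp [mA, mB, mHa, mHb, Matrix.mul_apply, Matrix.diagonal, Fintype.sum_sum_type, Fin.sum_univ_two, he]

set_option maxHeartbeats 4000000 in
theorem conj_rels (t : F) :
    MA * rootU F 4 (-t) * (MA : Matrix.symplecticGroup (Fin 2) F)⁻¹ = rootU F 7 t ∧
    MB * rootU F 5 t * (MB : Matrix.symplecticGroup (Fin 2) F)⁻¹ = rootU F 6 t ∧
    MA * rootU F 5 (-t) * (MA : Matrix.symplecticGroup (Fin 2) F)⁻¹ = rootU F 2 t ∧
    MB * rootU F 4 (-t) * (MB : Matrix.symplecticGroup (Fin 2) F)⁻¹ = rootU F 3 t := by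
  simp only [mul_inv_eq_iff_eq_mul]
  refine ⟨?_, ?_, ?_, ?_⟩
  all_goals sp_eq

set_option maxHeartbeats 4000000 in
theorem stab_rels :
    (MB : Matrix.symplecticGroup (Fin 2) F)⁻¹ * MA * MB * rootU F 5 1 = rootU F 5 (-1) * (MB⁻¹ * MA * MB) ∧
    (MA : Matrix.symplecticGroup (Fin 2) F)⁻¹ * MB * MA * rootU F 4 1 = rootU F 4 1 * (MA⁻¹ * MB * MA) := by
  rw [MA_inv, MB_inv]
  refine ⟨?_, ?_⟩
  all_goals sp_eq

set_option maxHeartbeats 4000000 in
theorem weyl_eq (μ : Fˣ) :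
    (MA : Matrix.symplecticGroup (Fin 2) F) = rootU F 5 1 * rootU F 2 (-1) * rootU F 5 1 ∧
    (MB : Matrix.symplecticGroup (Fin 2) F) = rootU F 4 1 * rootU F 3 (-1) * rootU F 4 1 ∧
    MHa μ * MA = rootU F 5 (μ : F) * rootU F 2 (-((μ⁻¹ : Fˣ) : F)) * rootU F 5 (μ : F) ∧
    MHb μ * MB = rootU F 4 (μ : F) * rootU F 3 (-((μ⁻¹ : Fˣ) : F)) * rootU F 4 (μ : F) := by
  refine ⟨?_, ?_, ?_, ?_⟩
  all_goals sp_eq

set_option maxHeartbeats 4000000 in
theorem comm_rels :
    rootU F 5 1 * rootU F 7 1 = rootU F 7 1 * rootU F 5 1 ∧ rootU F 4 1 * rootU F 7 1 = rootU F 7 1 * rootU F 4 1 ∧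
    rootU F 5 1 * rootU F 6 1 = rootU F 7 2 * (rootU F 6 1 * rootU F 5 1) ∧
    rootU F 5 1 * rootU F 4 1 = rootU F 6 (-1) * rootU F 7 (-1) * (rootU F 4 1 * rootU F 5 1) := by
  refine ⟨?_, ?_, ?_, ?_⟩
  all_goals sp_eq

set_option maxHeartbeats 4000000 in
theorem conj_x (μ : Fˣ) (t : F) :
    MHb μ * rootU F 5 t * (MHb μ)⁻¹ = rootU F 5 (((μ⁻¹ : Fˣ) : F) * t) ∧
    MHb μ * rootU F 4 t * (MHb μ)⁻¹ = rootU F 4 ((μ : F) ^ 2 * t) ∧
    MHa μ * rootU F 5 t * (MHa μ)⁻¹ = rootU F 5 ((μ : F) ^ 2 * t) ∧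
    MHa μ * rootU F 4 t * (MHa μ)⁻¹ = rootU F 4 (((μ⁻¹ : Fˣ) : F) ^ 2 * t) := by
  simp only [mul_inv_eq_iff_eq_mul]
  refine ⟨?_, ?_, ?_, ?_⟩
  all_goals sp_eq

end Cfsg.Agent.KnownA.Pres4
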