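import Cfsg.Agent.KnownA.Pres3.OrbitThree
import Cfsg.Agent.KnownA.Pres.Main

/-! At most five relations presenting the orbit of a root element under two torus elements. -/

set_option autoImplicit false
set_option linter.unusedSectionVars false

namespace Cfsg.Agent.KnownA.Pres4

open Polynomial Cfsg.Agent.KnownA.Pres

universe v u

variable {F : Type u} [Field F] [Fintype F]

/-- Relators that present an orbit with multipliers `l` and `lam`. -/
def OrbitPres (l lam : F) : Prop :=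
  ∃ rs : List (FreeGroup (Fin 3)), rs.length ≤ 5 ∧
    (∀ (G : Type v) [Group G] (φ : FreeGroup (Fin 3) →* G) (x : F → G), (∀ a b, x (a + b) = x a * x b) →
      x 1 = φ gU → (∀ t, φ gH * x t * (φ gH)⁻¹ = x (l * t)) → (∀ t, φ gW * x t * (φ gW)⁻¹ = x (lam * t)) →
      φ gW ^ (Fintype.card F - 1) = 1 → ∀ r ∈ rs, φ r = 1) ∧
    ∀ (G : Type) [Group G] (φ : FreeGroup (Fin 3) →* G), (∀ r ∈ rs, φ r = 1) → Commute (φ gW) (φ gH) →
      ∃ x : F → G, (∀ a b, x (a + b) = x a * x b) ∧ x 1 = φ gU ∧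
        (∀ t, φ gH * x t * (φ gH)⁻¹ = x (l * t)) ∧ ∀ t, ∃ t', φ gW * x t * (φ gW)⁻¹ = x t'

variable {p : ℕ} [Fact p.Prime] [Algebra (ZMod p) F]

theorem conj_second {G : Type*} [Group G] {g u h : G} (hgh : Commute h g) {l lam : F}
    (hgen : Algebra.adjoin (ZMod p) {l} = ⊤) (x : F → G) (hadd : ∀ a b, x (a + b) = x a * x b)
    (hconj : ∀ t, g * x t * g⁻¹ = x (l * t)) (hx : ∀ P : (ZMod p)[X], word g u P = x (aeval l P))
    (hh : h * u * h⁻¹ = x lam) (t : F) : h * x t * h⁻¹ = x (t * lam) := by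
  obtain ⟨P, rfl⟩ : ∃ P : (ZMod p)[X], aeval l P = t := by
    have : t ∈ Algebra.adjoin (ZMod p) ({l} : Set F) := by rw [hgen]; trivial
    rwa [Algebra.adjoin_singleton_eq_range_aeval] at this
  rw [← hx, ← MulAut.conj_apply]
  show (MulAut.conj h).toMonoidHom (word g u P) = _
  rw [map_word]
  simp only [MulEquiv.coe_toMonoidHom, MulAut.conj_apply]
  rw [hgh.eq, mul_inv_cancel_right, hh]
  exact word_eq g (x lam) l (fun t => x (t * lam)) (fun a b => by rw [add_mul, hadd]) (by rw [one_mul])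
    (fun t => by rw [hconj, mul_assoc]) P

theorem orbit_odd (hp : p ≠ 2) (μ : Fˣ) (hμ : ∀ x, x ∈ Subgroup.zpowers μ) (lam : F) :
    OrbitPres.{v} ((μ : F) ^ 2) lam := by
  set l := (μ : F) ^ 2 with hl
  have hgen : Algebra.adjoin (ZMod p) {l} = ⊤ := adjoin_sq_generator hp μ hμ
  obtain ⟨rs, hlen, hmod, hder⟩ := exists_orbit_rels.{v, 0, u} (p := p) hp μ hμ
  have hlam : lam ∈ Algebra.adjoin (ZMod p) ({l} : Set F) := by rw [hgen]; trivial
  rw [Algebra.adjoin_singleton_eq_range_aeval] at hlam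
  obtain ⟨Q, hQ⟩ := hlam
  change (aeval l).toRingHom Q = lam at hQ
  refine ⟨rs ++ [gW * gU * gW⁻¹ * (word gH gU Q)⁻¹], by simp; omega, ?_, ?_⟩
  · intro G _ φ x hadd hx1 hg hh _ r hr
    rcases List.mem_append.mp hr with hr | hr
    · exact hmod G φ x hadd hx1 hg r hr
    · rw [List.mem_singleton.mp hr, map_mul, map_inv, mul_inv_eq_one, map_mul, map_mul, map_inv, map_word,
        word_eq _ _ l x hadd hx1 hg, ← hx1, hh, mul_one]
      exact congrArg x hQ.symm
  · intro G _ φ hrel hcomm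
    obtain ⟨x, hadd, hx1, hconj, hx⟩ := hder G φ fun r hr => hrel r (List.mem_append_left _ hr)
    have r := hrel _ (List.mem_append_right _ (List.mem_singleton_self _))
    rw [map_mul, map_inv, mul_inv_eq_one, map_mul, map_mul, map_inv, map_word, hx] at r
    exact ⟨x, hadd, hx1, hconj, fun t => ⟨_, conj_second hcomm hgen x hadd hconj hx r t⟩⟩

theorem orbit_gen (p : ℕ) [Fact p.Prime] [Algebra (ZMod p) F] {l : F} (hl0 : l ≠ 0) (hgen' : ∀ a : F, a ≠ 0 → ∃ n : ℕ, l ^ n = a) (lam : F) :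
    OrbitPres.{v} l lam := by
  set q := Fintype.card F with hq
  have hq2 : 2 ≤ q := Fintype.one_lt_card
  have hgen : Algebra.adjoin (ZMod p) {l} = ⊤ := by
    rw [eq_top_iff]
    intro t _
    by_cases ht : t = 0
    · subst ht; exact zero_mem _
    · obtain ⟨i, rfl⟩ := hgen' t ht
      exact pow_mem (Algebra.subset_adjoin (Set.mem_singleton l)) i
  have hpF : CharP F p := charP_of_injective_algebraMap (algebraMap (ZMod p) F).injective p
  have hpu : ∀ (G : Type v) [Group G] (x : F → G), (∀ a b, x (a + b) = x a * x b) → x 0 = 1 ∧ x 1 ^ p = 1 := by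
    intro G _ x hadd
    have x0 : x 0 = 1 := by
      have := hadd 0 0
      rw [add_zero] at this
      exact left_eq_mul.mp this
    have hpow : ∀ n : ℕ, x 1 ^ n = x (n : F) := by
      intro n
      induction n with
      | zero => simp [x0]
      | succ n ih => rw [pow_succ, ih, Nat.cast_succ, hadd]
    exact ⟨x0, by rw [hpow, CharP.cast_eq_zero, x0]⟩
  have hA : ∀ (G : Type v) [Group G] (g : G) (x : F → G), (∀ t, g * x t * g⁻¹ = x (l * t)) → ∀ i : ℕ,
      A g (x 1) (i : ℤ) = x (l ^ i) := by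
    intro G _ g x hg i
    induction i with
    | zero => simp [A_zero]
    | succ i ih =>
      rw [show ((i + 1 : ℕ) : ℤ) = 1 + (i : ℤ) by push_cast; ring, ← A_shift, zpow_one, ih, hg, pow_succ']
  by_cases hF : Module.finrank (ZMod p) F ≤ 2
  · obtain ⟨Q, hQ⟩ : ∃ Q : (ZMod p)[X], aeval l Q = lam := by
      have : lam ∈ Algebra.adjoin (ZMod p) ({l} : Set F) := by rw [hgen]; trivial
      rwa [Algebra.adjoin_singleton_eq_range_aeval] at this
    refine ⟨[gU ^ p, A gH gU ((0 : ℕ) : ℤ) * A gH gU ((1 : ℕ) : ℤ) * (A gH gU ((1 : ℕ) : ℤ) * A gH gU ((0 : ℕ) : ℤ))⁻¹,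
      word gH gU (minpoly (ZMod p) l), gW * gU * gW⁻¹ * (word gH gU Q)⁻¹], by simp, ?_, ?_⟩
    · intro G _ φ x hadd hx1 hg hh _ r hr
      obtain ⟨x0, xp⟩ := hpu G x hadd
      simp only [List.mem_cons, List.not_mem_nil, or_false] at hr
      rcases hr with rfl | rfl | rfl | rfl
      · rw [map_pow, ← hx1, xp]
      · rw [map_mul, map_inv, mul_inv_eq_one, map_mul, map_mul, map_A, map_A, ← hx1, hA G _ x hg, hA G _ x hg, ← hadd,
          ← hadd, add_comm]
      · rw [map_word, word_eq _ _ l x hadd hx1 hg, minpoly.aeval, x0]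
      · rw [map_mul, map_inv, mul_inv_eq_one, map_mul, map_mul, map_inv, map_word, word_eq _ _ l x hadd hx1 hg, ← hx1,
          hh, mul_one, hQ]
    · intro G _ φ hrel hcomm
      simp only [List.mem_cons, List.not_mem_nil, or_false, forall_eq_or_imp, forall_eq] at hrel
      obtain ⟨r1, r2, r3, r4⟩ := hrel
      rw [map_pow] at r1
      rw [map_mul, map_inv, mul_inv_eq_one, map_mul, map_mul, map_A, map_A] at r2
      rw [map_word] at r3
      rw [map_mul, map_inv, mul_inv_eq_one, map_mul, map_mul, map_inv, map_word] at r4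
      obtain ⟨ev, eadd, eone, eX, eword, emul, emin⟩ := Cfsg.Agent.KnownA.Pres3.exists_small_orbit hF (φ gH) (φ gU) l r1
        (by simpa [Commute, SemiconjBy] using r2) r3
      obtain ⟨x, hadd, hx1, hconj, hx⟩ := exists_x (φ gH) (φ gU) l hgen ev eadd eone eX emul emin
      have hx' : ∀ P : (ZMod p)[X], word (φ gH) (φ gU) P = x (aeval l P) := fun P => by rw [← eword, hx]
      rw [hx'] at r4
      exact ⟨x, hadd, hx1, hconj, fun t => ⟨_, conj_second hcomm hgen x hadd hconj hx' r4 t⟩⟩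
  have h1l : (1 : F) + l ≠ 0 := by
    intro h
    have hl1 : l ∈ (⊥ : Subalgebra (ZMod p) F) := by
      rw [eq_neg_of_add_eq_zero_right h]; exact neg_mem (one_mem _)
    have htop : (⊤ : Subalgebra (ZMod p) F) = ⊥ := by
      rw [← hgen, eq_bot_iff, Algebra.adjoin_le_iff, Set.singleton_subset_iff]
      exact hl1
    have := Subalgebra.bot_eq_top_iff_finrank_eq_one.mp htop.symm
    omega
  obtain ⟨k, hk⟩ := hgen' (1 + l) h1l
  have hla : l ^ (q * k) = 1 + l := by rw [mul_comm, pow_mul, hk, hq, FiniteField.pow_card]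
  have hpa : p ∣ q * k := by
    refine Dvd.dvd.mul_right ?_ k
    rw [hq, Fintype.card_eq_nat_card, Module.natCard_eq_pow_finrank (K := ZMod p), Nat.card_zmod]
    exact dvd_pow_self p (by omega)
  obtain ⟨Q, hQ, hkill⟩ := Cfsg.Agent.KnownA.Pres3.exists_kill l hpa hla lam hgen
  obtain ⟨A', B', hcomb⟩ := hkill (q - 1) (by omega)
  refine ⟨[gU ^ p, A gH gU ((0 : ℕ) : ℤ) * A gH gU ((1 : ℕ) : ℤ) * (A gH gU ((1 : ℕ) : ℤ) * A gH gU ((0 : ℕ) : ℤ))⁻¹,
    A gH gU ((q * k : ℕ) : ℤ) * (A gH gU ((0 : ℕ) : ℤ) * A gH gU ((1 : ℕ) : ℤ))⁻¹,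
    gW * gU * gW⁻¹ * (word gH gU Q)⁻¹, gW ^ (q - 1)], by simp, ?_, ?_⟩
  · intro G _ φ x hadd hx1 hg hh hn r hr
    obtain ⟨x0, xp⟩ := hpu G x hadd
    simp only [List.mem_cons, List.not_mem_nil, or_false] at hr
    rcases hr with rfl | rfl | rfl | rfl | rfl
    · rw [map_pow, ← hx1, xp]
    · rw [map_mul, map_inv, mul_inv_eq_one, map_mul, map_mul, map_A, map_A, ← hx1, hA G _ x hg, hA G _ x hg, ← hadd,
        ← hadd, add_comm]
    · rw [map_mul, map_inv, mul_inv_eq_one, map_mul, map_A, map_A, map_A, ← hx1, hA G _ x hg, hA G _ x hg,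
        hA G _ x hg, ← hadd, pow_zero, pow_one, hla]
    · rw [map_mul, map_inv, mul_inv_eq_one, map_mul, map_mul, map_inv, map_word, word_eq _ _ l x hadd hx1 hg, ← hx1,
        hh, mul_one, hQ]
    · rw [map_pow]; exact hn
  · intro G _ φ hrel hcomm
    simp only [List.mem_cons, List.not_mem_nil, or_false, forall_eq_or_imp, forall_eq] at hrel
    obtain ⟨r1, r2, r3, r4, r5⟩ := hrel
    rw [map_pow] at r1 r5
    rw [map_mul, map_inv, mul_inv_eq_one, map_mul, map_mul, map_A, map_A] at r2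
    rw [map_mul, map_inv, mul_inv_eq_one, map_mul, map_A, map_A, map_A] at r3
    rw [map_mul, map_inv, mul_inv_eq_one, map_mul, map_mul, map_inv, map_word] at r4
    obtain ⟨ev, eadd, eone, eX, eword, emul, emin⟩ := Cfsg.Agent.KnownA.Pres3.exists_large_orbit (φ gH) (φ gU) (φ gW) Q
      _ A' B' hcomb hcomm r1 (by simpa [Commute, SemiconjBy] using r2) (by simpa using r3) r4 r5
    obtain ⟨x, hadd, hx1, hconj, hx⟩ := exists_x (φ gH) (φ gU) l hgen ev eadd eone eX emul emin
    have hx' : ∀ P : (ZMod p)[X], word (φ gH) (φ gU) P = x (aeval l P) := fun P => by rw [← eword, hx]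
    rw [hx', hQ] at r4
    exact ⟨x, hadd, hx1, hconj, fun t => ⟨_, conj_second hcomm hgen x hadd hconj hx' r4 t⟩⟩

end Cfsg.Agent.KnownA.Pres4
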