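import Cfsg.Agent.KnownA.Pres4.Unip
import Cfsg.Agent.KnownA.Pres4.Orbits
import Cfsg.Agent.KnownA.Pres4.Model
import Cfsg.Agent.KnownA.Pres3.OrbitThree

/-! A presentation of `Sp₄` with six generators and at most twenty-eight relations. -/

set_option autoImplicit false
set_option linter.unusedSectionVars false

namespace Cfsg.Agent.KnownA.Pres4

open Polynomial Cfsg.Agent.KnownA.Pres Cfsg.Agent.Forms
open scoped commutatorElement

universe u

variable {F : Type u} [Field F] [Fintype F]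

/-- The short root generator. -/
noncomputable def fU : FreeGroup (Fin 6) := FreeGroup.of 0

/-- The long root generator. -/
noncomputable def fV : FreeGroup (Fin 6) := FreeGroup.of 1

/-- The short Weyl generator. -/
noncomputable def fA : FreeGroup (Fin 6) := FreeGroup.of 2

/-- The long Weyl generator. -/
noncomputable def fB : FreeGroup (Fin 6) := FreeGroup.of 3

/-- The short torus generator. -/
noncomputable def fHa : FreeGroup (Fin 6) := FreeGroup.of 4

/-- The long torus generator. -/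
noncomputable def fHb : FreeGroup (Fin 6) := FreeGroup.of 5

/-- The embedding of the short orbit. -/
noncomputable def ιu : FreeGroup (Fin 3) →* FreeGroup (Fin 6) := FreeGroup.lift ![fU, fHa, fHb]

/-- The embedding of the long orbit. -/
noncomputable def ιv : FreeGroup (Fin 3) →* FreeGroup (Fin 6) := FreeGroup.lift ![fV, fHa, fHb]

variable {p : ℕ}

/-- The relators besides the two orbits. -/
noncomputable def fixedRels (μ : Fˣ) (e : ℕ) (P P' : F → (ZMod p)[X]) : List (FreeGroup (Fin 6)) :=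
  [fHa * fHb * (fHb * fHa)⁻¹, fHa * fA * fHa * fA⁻¹, fA * fHb * (fHa * fHb * fA)⁻¹,
    fB * fHa * (fHa * fHb * fHb * fB)⁻¹, fHb * fB * fHb * fB⁻¹, fA * fA * (fHa ^ e)⁻¹, fB * fB * (fHb ^ e)⁻¹,
    fA * fB * (fA * fB) * (fB * fA * (fB * fA))⁻¹,
    fB⁻¹ * fA * fB * fU * (fU⁻¹ * (fB⁻¹ * fA * fB))⁻¹, fA⁻¹ * fB * fA * fV * (fV * (fA⁻¹ * fB * fA))⁻¹,
    fA * (fU * (fA * fU * fA⁻¹) * fU)⁻¹, fB * (fV * (fB * fV * fB⁻¹) * fV)⁻¹,
    fHa * fA * (word fHb fU (P (μ : F)) * (fA * word fHb fU (P ((μ⁻¹ : Fˣ) : F)) * fA⁻¹) * word fHb fU (P (μ : F)))⁻¹,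
    fHb * fB * (word fHb fV (P' (μ : F)) * (fB * word fHb fV (P' ((μ⁻¹ : Fˣ) : F)) * fB⁻¹) * word fHb fV (P' (μ : F)))⁻¹,
    ⁅fU, fA * word fHb fV (P' (-1)) * fA⁻¹⁆, ⁅fV, fA * word fHb fV (P' (-1)) * fA⁻¹⁆,
    ⁅fU, fB * fU * fB⁻¹⁆ * (fA * word fHb fV (P' (-2)) * fA⁻¹)⁻¹,
    ⁅fU, fV⁆ * (fB * word fHb fU (P (-1)) * fB⁻¹ * (fA * word fHb fV (P' 1) * fA⁻¹))⁻¹]

theorem sq_generates_two [CharP F 2] (μ : Fˣ) (hμ : ∀ x, x ∈ Subgroup.zpowers μ) (a : F) (ha : a ≠ 0) :
    ∃ n : ℕ, ((μ : F) ^ 2) ^ n = a := by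
  obtain ⟨b, rfl⟩ := FiniteField.isSquare_of_char_two (ringChar.eq F 2) a
  have hb : b ≠ 0 := fun h => ha (by simp [h])
  obtain ⟨k, hk⟩ := mem_powers_iff_mem_zpowers.mpr (hμ (Units.mk0 b hb))
  have hk' : (μ : F) ^ k = b := by simpa using congrArg Units.val hk
  exact ⟨k, by rw [← hk', ← pow_mul, ← pow_add]; ring_nf⟩

theorem sp_four_model :
    ∃ rs : List (FreeGroup (Fin 6)), rs.length ≤ 28 ∧
      Nonempty (PresentedGroup {r | r ∈ rs} ≃* Matrix.symplecticGroup (Fin 2) F) ∧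
      ∃ e : PresentedGroup {r | r ∈ rs} ≃* Matrix.symplecticGroup (Fin 2) F,
        e (PresentedGroup.mk _ (fA * fA)) = MA * MA := by
  classical
  obtain ⟨p, hchar⟩ := CharP.exists F
  obtain ⟨f, hpp, hqf⟩ := FiniteField.card F p
  have : Fact p.Prime := ⟨hpp⟩
  let _ : Algebra (ZMod p) F := ZMod.algebra F p
  obtain ⟨μ, hμ⟩ := IsCyclic.exists_generator (α := Fˣ)
  set l : F := ((μ⁻¹ : Fˣ) : F) with hl
  set l' : F := (μ : F) ^ 2 with hl'
  have hgen : ∀ a : F, a ≠ 0 → ∃ n : ℕ, l ^ n = a := by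
    intro a ha
    obtain ⟨k, hk⟩ := mem_powers_iff_mem_zpowers.mpr (hμ (Units.mk0 a ha)⁻¹)
    have hk' : μ ^ k = (Units.mk0 a ha)⁻¹ := hk
    exact ⟨k, by rw [hl, ← Units.val_pow_eq_pow_val, inv_pow, hk', inv_inv, Units.val_mk0]⟩
  have htop : ∀ {m : F}, (∀ a : F, a ≠ 0 → ∃ n : ℕ, m ^ n = a) → Algebra.adjoin (ZMod p) {m} = ⊤ := by
    intro m hm
    rw [eq_top_iff]
    intro t _
    by_cases ht : t = 0
    · subst ht; exact zero_mem _
    · obtain ⟨i, rfl⟩ := hm t ht
      exact pow_mem (Algebra.subset_adjoin (Set.mem_singleton m)) i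
  have hadj := htop hgen
  obtain ⟨hadj', hOv⟩ : Algebra.adjoin (ZMod p) {l'} = ⊤ ∧ OrbitPres.{u} l' (l ^ 2) := by
    by_cases hp : p = 2
    · subst hp
      exact ⟨htop (sq_generates_two μ hμ), orbit_gen 2 (pow_ne_zero 2 μ.ne_zero) (sq_generates_two μ hμ) _⟩
    · exact ⟨adjoin_sq_generator hp μ hμ, orbit_odd hp μ hμ _⟩
  obtain ⟨ru, hru, hmu, hdu⟩ := (orbit_gen p (Units.ne_zero _) hgen ((μ : F) ^ 2) : OrbitPres.{u} l ((μ : F) ^ 2))
  obtain ⟨rv, hrv, hmv, hdv⟩ := hOv
  obtain ⟨e, he⟩ : ∃ e, (μ : F) ^ e = -1 := by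
    obtain ⟨k, hk⟩ := mem_powers_iff_mem_zpowers.mpr (hμ (-1))
    have hk' : μ ^ k = -1 := hk
    exact ⟨k, by rw [← Units.val_pow_eq_pow_val, hk']; rfl⟩
  have hsurj : ∀ {m : F}, Algebra.adjoin (ZMod p) {m} = ⊤ → ∀ t : F, ∃ A : (ZMod p)[X], aeval m A = t := by
    intro m hm t
    have : t ∈ Algebra.adjoin (ZMod p) ({m} : Set F) := by rw [hm]; trivial
    rwa [Algebra.adjoin_singleton_eq_range_aeval] at this
  choose P hP using hsurj hadj
  choose P' hP' using hsurj hadj'
  set rs := ru.map ιu ++ rv.map ιv ++ fixedRels μ e P P' with hrs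
  have hlen : rs.length ≤ 28 := by
    simp only [hrs, List.length_append, List.length_map, fixedRels, List.length_cons, List.length_nil]
    omega
  set gens : Fin 6 → Matrix.symplecticGroup (Fin 2) F := ![rootU F 5 1, rootU F 4 1, MA, MB, MHa μ, MHb μ]
  set φ₀ := FreeGroup.lift gens with hφ₀
  have e0 : φ₀ fU = rootU F 5 1 := by simp [φ₀, gens, fU]
  have e1 : φ₀ fV = rootU F 4 1 := by simp [φ₀, gens, fV]
  have e2 : φ₀ fA = MA := by simp [φ₀, gens, fA]
  have e3 : φ₀ fB = MB := by simp [φ₀, gens, fB]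
  have e4 : φ₀ fHa = MHa μ := by simp [φ₀, gens, fHa]
  have e5 : φ₀ fHb = MHb μ := by simp [φ₀, gens, fHb]
  have hU : ∀ A : (ZMod p)[X], word (MHb μ) (rootU F 5 1) A = rootU F 5 (aeval l A) := fun A =>
    word_eq _ _ l (rootU F 5) (rootU_add 5) rfl (fun t => (conj_x μ t).1) A
  have hV : ∀ A : (ZMod p)[X], word (MHb μ) (rootU F 4 1) A = rootU F 4 (aeval l' A) := fun A =>
    word_eq _ _ l' (rootU F 4) (rootU_add 4) rfl (fun t => (conj_x μ t).2.1) A
  have hHn : (MHa μ : Matrix.symplecticGroup (Fin 2) F) ^ (Fintype.card F - 1) = 1 := by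
    rw [MHa_pow, show μ ^ (Fintype.card F - 1) = 1 from Units.ext (by
      rw [Units.val_pow_eq_pow_val, Units.val_one]
      exact FiniteField.pow_card_sub_one_eq_one (μ : F) μ.ne_zero), MHa_one]
  have hmod : ∀ r ∈ rs, φ₀ r = 1 := by
    intro r hr
    rcases List.mem_append.mp hr with hr | hr
    rcases List.mem_append.mp hr with hr | hr
    · obtain ⟨r₀, hr₀, rfl⟩ := List.mem_map.mp hr
      refine hmu _ (φ₀.comp ιu) (rootU F 5) (rootU_add 5) ?_ (fun t => ?_) (fun t => ?_) ?_ r₀ hr₀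
      · simp [ιu, gU, e0]
      · simpa [ιu, gH, e5, hl] using (conj_x μ t).1
      · simpa [ιu, gW, e4] using (conj_x μ t).2.2.1
      · simpa [ιu, gW, e4] using hHn
    · obtain ⟨r₀, hr₀, rfl⟩ := List.mem_map.mp hr
      refine hmv _ (φ₀.comp ιv) (rootU F 4) (rootU_add 4) ?_ (fun t => ?_) (fun t => ?_) ?_ r₀ hr₀
      · simp [ιv, gU, e1]
      · simpa [ιv, gH, e5] using (conj_x μ t).2.1
      · simpa [ιv, gW, e4, hl] using (conj_x μ t).2.2.2
      · simpa [ιv, gW, e4] using hHn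
    obtain ⟨t1, t2, t3, t4, t5, t6⟩ := torus_rels (F := F) μ
    obtain ⟨s1, s2⟩ := weyl_sq μ e he
    obtain ⟨c1, c2⟩ := stab_rels (F := F)
    obtain ⟨w1, w2, w3, w4⟩ := weyl_eq (F := F) μ
    obtain ⟨k1, k2, k3, k4⟩ := comm_rels (F := F)
    have j7 : ∀ t : F, MA * rootU F 4 t * MA⁻¹ = rootU F 7 (-t) := fun t => by
      simpa using (conj_rels (-t)).1
    have j6 : ∀ t : F, MB * rootU F 5 t * MB⁻¹ = rootU F 6 t := fun t => (conj_rels t).2.1
    have j2 : ∀ t : F, MA * rootU F 5 t * MA⁻¹ = rootU F 2 (-t) := fun t => by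
      simpa using (conj_rels (-t)).2.2.1
    have j3 : ∀ t : F, MB * rootU F 4 t * MB⁻¹ = rootU F 3 (-t) := fun t => by
      simpa using (conj_rels (-t)).2.2.2
    simp only [fixedRels, List.mem_cons, List.not_mem_nil, or_false] at hr
    rcases hr with rfl | rfl | rfl | rfl | rfl | rfl | rfl | rfl | rfl | rfl | rfl | rfl | rfl | rfl | rfl | rfl | rfl | rfl <;>
      simp only [map_mul, map_inv, map_pow, map_commutatorElement, map_word, e0, e1, e2, e3, e4, e5, hU, hV, hP, hP',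
        mul_inv_eq_one]
    exacts [t1, t2, t3, t4, t5, s1, s2, t6,
      by rw [rootU_inv]; exact c1,
      c2,
      by rw [j2]; exact w1,
      by rw [j3]; exact w2,
      by rw [j2]; exact w3,
      by rw [j3]; exact w4,
      by rw [j7, neg_neg, commutatorElement_eq_one_iff_mul_comm]; exact k1,
      by rw [j7, neg_neg, commutatorElement_eq_one_iff_mul_comm]; exact k2,
      by rw [j6, j7, neg_neg, commutatorElement_def, mul_inv_eq_iff_eq_mul, mul_inv_eq_iff_eq_mul, mul_assoc]; exact k3,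
      by rw [j6, j7, commutatorElement_def, mul_inv_eq_iff_eq_mul, mul_inv_eq_iff_eq_mul,
        mul_assoc (rootU F 6 (-1) * rootU F 7 (-1))]; exact k4]
  set R : Set (FreeGroup (Fin 6)) := {r | r ∈ rs}
  have h : ∀ r ∈ R, FreeGroup.lift gens r = 1 := fun r hr => hmod r hr
  set ψ := PresentedGroup.toGroup h
  set φ := PresentedGroup.mk R
  have hψφ : ∀ r, ψ (φ r) = φ₀ r := fun r => rfl
  have hrel : ∀ r ∈ rs, φ r = 1 := fun r hr => PresentedGroup.one_of_mem (show r ∈ R from hr)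
  have hf : ∀ r ∈ fixedRels μ e P P', φ r = 1 := fun r hr => hrel r (List.mem_append_right _ hr)
  simp only [fixedRels, List.mem_cons, List.not_mem_nil, or_false, forall_eq_or_imp, forall_eq] at hf
  obtain ⟨a1, a2, a3, a4, a5, a6, a7, a8, a9, a10, a11, a12, a13, a14, a15, a16, a17, a18⟩ := hf
  simp only [map_mul, map_inv, map_pow, map_commutatorElement, map_word, mul_inv_eq_one] at a1 a2 a3 a4 a5 a6 a7 a8 a9 a10 a11 a12 a13 a14 a15 a16 a17 a18
  have hcomm : Commute (φ fHa) (φ fHb) := a1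
  obtain ⟨x, xadd, x1, xg, xh⟩ := hdu _ (φ.comp ιu)
    (fun r hr => hrel _ (List.mem_append_left _ (List.mem_append_left _ (List.mem_map_of_mem hr))))
    (by simpa [ιu, gW, gH] using hcomm)
  obtain ⟨y, yadd, y1, yg, yh⟩ := hdv _ (φ.comp ιv)
    (fun r hr => hrel _ (List.mem_append_left _ (List.mem_append_right _ (List.mem_map_of_mem hr))))
    (by simpa [ιv, gW, gH] using hcomm)
  simp [ιu, gU, gW, gH] at x1 xg xh
  simp [ιv, gU, gW, gH] at y1 yg yh
  have hxw : ∀ A : (ZMod p)[X], word (φ fHb) (φ fU) A = x (aeval l A) := fun A =>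
    word_eq _ _ l x xadd x1 (fun t => by rw [xg t]) A
  have hyw : ∀ A : (ZMod p)[X], word (φ fHb) (φ fV) A = y (aeval l' A) := fun A =>
    word_eq _ _ l' y yadd y1 (fun t => by rw [yg t]) A
  simp only [hxw, hyw, hP, hP'] at a13 a14 a15 a16 a17 a18
  have hψx : ∀ t, ψ (x t) = rootU F 5 t :=
    psi_x ψ l hadj (φ fU) (φ fHb) x hxw (rootU F 5) (rootU_add 5) (by rw [hψφ, e0])
      (fun t => by rw [hψφ, e5]; exact (conj_x μ t).1)
  have hψy : ∀ t, ψ (y t) = rootU F 4 t :=
    psi_x ψ l' hadj' (φ fV) (φ fHb) y hyw (rootU F 4) (rootU_add 4) (by rw [hψφ, e1])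
      (fun t => by rw [hψφ, e5]; exact (conj_x μ t).2.1)
  have hTa : φ fHa ∈ Subgroup.closure ({φ fHa, φ fHb} : Set (PresentedGroup R)) := Subgroup.subset_closure (Or.inl rfl)
  have hTb : φ fHb ∈ Subgroup.closure ({φ fHa, φ fHb} : Set (PresentedGroup R)) := Subgroup.subset_closure (Or.inr rfl)
  have xneg : ∀ t, x (-t) = (x t)⁻¹ := fun t => by
    refine eq_inv_of_mul_eq_one_left ?_
    have h0 := xadd 0 0
    rw [add_zero] at h0
    rw [← xadd, neg_add_cancel]
    exact left_eq_mul.mp h0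
  let S : Sys (PresentedGroup R) F :=
    { ψ := ψ
      x := x
      y := y
      wa := φ fA
      wb := φ fB
      ha := φ fHa
      hb := φ fHb
      μ := μ
      x_add := xadd
      y_add := yadd
      ψx := hψx
      ψy := hψy
      ψwa := by rw [hψφ, e2]; rfl
      ψwb := by rw [hψφ, e3]; rfl
      ψha := by rw [hψφ, e4]; rfl
      ψhb := by rw [hψφ, e5]; rfl
      hgen := hgen
      hspan := Cfsg.Agent.KnownA.Pres3.spans_of_adjoin one_ne_zero hadj'
      ha_x := xh
      hb_x := fun t => by rw [xg t]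
      ha_y := yh
      hb_y := fun t => by rw [yg t]
      wa_ha := by
        have : φ fA * φ fHa * (φ fA)⁻¹ = (φ fHa)⁻¹ := by
          rw [mul_inv_eq_iff_eq_mul, eq_inv_mul_iff_mul_eq, ← mul_assoc]; exact a2
        rw [this]; exact inv_mem hTa
      wa_hb := by
        have : φ fA * φ fHb * (φ fA)⁻¹ = φ fHa * φ fHb := by rw [mul_inv_eq_iff_eq_mul]; exact a3
        rw [this]; exact mul_mem hTa hTb
      wb_ha := by
        have : φ fB * φ fHa * (φ fB)⁻¹ = φ fHa * φ fHb * φ fHb := by rw [mul_inv_eq_iff_eq_mul]; exact a4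
        rw [this]; exact mul_mem (mul_mem hTa hTb) hTb
      wb_hb := by
        have : φ fB * φ fHb * (φ fB)⁻¹ = (φ fHb)⁻¹ := by
          rw [mul_inv_eq_iff_eq_mul, eq_inv_mul_iff_mul_eq, ← mul_assoc]; exact a5
        rw [this]; exact inv_mem hTb
      wa_sq := by rw [a6]; exact pow_mem hTa _
      wb_sq := by rw [a7]; exact pow_mem hTb _
      braid := a8
      stab_x := by rw [mul_inv_eq_iff_eq_mul, xneg, x1]; exact a9
      stab_y := by rw [mul_inv_eq_iff_eq_mul, y1]; exact a10 }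
  have hbase : S.Base :=
    { rel57 := commutatorElement_eq_one_iff_mul_comm.mp (by rw [show S.x 1 = φ fU from x1, S.X7]; exact a15)
      rel47 := commutatorElement_eq_one_iff_mul_comm.mp (by rw [show S.y 1 = φ fV from y1, S.X7]; exact a16)
      rel56 := ⟨2, by rw [show S.x 1 = φ fU from x1, S.X6, S.X7, id_eq, show S.x 1 = φ fU from x1]; exact a17⟩
      rel54 := ⟨-1, -1, by
        rw [show S.x 1 = φ fU from x1, show S.y 1 = φ fV from y1, S.X6, S.X7, id_eq, neg_neg]; exact a18⟩ }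
  have hbij : Function.Bijective ψ := by
    refine bijective_of_rels ψ S.X S.ψX (S.rels hbase) ?_
    set H := Subgroup.closure {g | ∃ r t, g = S.X r t}
    have hX : ∀ r t, S.X r t ∈ H := fun r t => Subgroup.subset_closure ⟨r, t, rfl⟩
    have hX2 : ∀ t, φ fA * x t * (φ fA)⁻¹ ∈ H := fun t => by simpa [S.X2] using hX 2 (-t)
    have hX3 : ∀ t, φ fB * y t * (φ fB)⁻¹ ∈ H := fun t => by simpa [S.X3] using hX 3 (-t)
    have hA : φ fA ∈ H := by
      rw [a11, ← x1]; exact mul_mem (mul_mem (hX 5 1) (hX2 1)) (hX 5 1)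
    have hB : φ fB ∈ H := by
      rw [a12, ← y1]; exact mul_mem (mul_mem (hX 4 1) (hX3 1)) (hX 4 1)
    have hHa : φ fHa ∈ H := (Subgroup.mul_mem_cancel_right H hA).1 (by
      rw [a13]; exact mul_mem (mul_mem (hX 5 _) (hX2 _)) (hX 5 _))
    have hHb : φ fHb ∈ H := (Subgroup.mul_mem_cancel_right H hB).1 (by
      rw [a14]; exact mul_mem (mul_mem (hX 4 _) (hX3 _)) (hX 4 _))
    rw [eq_top_iff, ← PresentedGroup.closure_range_of, Subgroup.closure_le]
    rintro _ ⟨i, rfl⟩
    fin_cases i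
    · show φ fU ∈ H
      rw [← x1]; exact hX 5 1
    · show φ fV ∈ H
      rw [← y1]; exact hX 4 1
    · exact hA
    · exact hB
    · exact hHa
    · exact hHb
  refine ⟨rs, hlen, ⟨MulEquiv.ofBijective ψ hbij⟩, MulEquiv.ofBijective ψ hbij, ?_⟩
  show ψ (φ (fA * fA)) = _
  rw [hψφ, map_mul, e2]

theorem presented_insert {α : Type*} {H : Type*} [Group H] (R : Set (FreeGroup α)) (z : FreeGroup α)
    (e : PresentedGroup R ≃* H) (N : Subgroup H) [N.Normal] (hN : N = Subgroup.zpowers (e (PresentedGroup.mk R z))) :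
    Nonempty (PresentedGroup (insert z R) ≃* H ⧸ N) := by
  have h1 : ∀ r ∈ insert z R, FreeGroup.lift (fun a => QuotientGroup.mk' N (e (PresentedGroup.of a))) r = 1 := by
    intro r hr
    rw [show FreeGroup.lift (fun a => QuotientGroup.mk' N (e (PresentedGroup.of (rels := R) a))) =
      (QuotientGroup.mk' N).comp (e.toMonoidHom.comp (PresentedGroup.mk R)) from
      FreeGroup.ext_hom _ _ fun a => by simp [PresentedGroup.of]]
    rcases hr with rfl | hr
    · rw [MonoidHom.comp_apply, ← MonoidHom.mem_ker, QuotientGroup.ker_mk', hN]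
      exact Subgroup.mem_zpowers _
    · simp [PresentedGroup.one_of_mem hr]
  let f := PresentedGroup.toGroup h1
  let g : PresentedGroup R →* PresentedGroup (insert z R) :=
    PresentedGroup.toGroup (f := fun a => PresentedGroup.of a) fun r hr => by
      rw [show FreeGroup.lift (fun a => PresentedGroup.of (rels := insert z R) a) = PresentedGroup.mk (insert z R) from
        FreeGroup.ext_hom _ _ fun a => by simp [PresentedGroup.of]]
      exact PresentedGroup.one_of_mem (Set.mem_insert_of_mem _ hr)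
  have hgmk : g.comp (PresentedGroup.mk R) = PresentedGroup.mk (insert z R) :=
    FreeGroup.ext_hom _ _ fun a => by
      show g (PresentedGroup.of a) = PresentedGroup.of a
      exact PresentedGroup.toGroup.of _
  have hker : N ≤ (g.comp e.symm.toMonoidHom).ker := by
    rw [hN, Subgroup.zpowers_le, MonoidHom.mem_ker]
    show g (e.symm (e _)) = 1
    rw [MulEquiv.symm_apply_apply, ← MonoidHom.comp_apply, hgmk]
    exact PresentedGroup.one_of_mem (Set.mem_insert _ _)
  refine ⟨MonoidHom.toMulEquiv f (QuotientGroup.lift N (g.comp e.symm.toMonoidHom) hker) ?_ ?_⟩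
  · refine PresentedGroup.ext fun a => ?_
    simp only [MonoidHom.comp_apply, MonoidHom.id_apply, f, PresentedGroup.toGroup.of]
    show g (e.symm (e _)) = _
    rw [MulEquiv.symm_apply_apply]
    exact PresentedGroup.toGroup.of _
  · refine QuotientGroup.monoidHom_ext _ (MonoidHom.ext fun h => ?_)
    obtain ⟨w, rfl⟩ := e.surjective h
    obtain ⟨w, rfl⟩ : ∃ v, PresentedGroup.mk R v = w := QuotientGroup.mk'_surjective _ w
    show f (g (e.symm (e _))) = _
    rw [MulEquiv.symm_apply_apply]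
    show (f.comp (g.comp (PresentedGroup.mk R))) w = ((QuotientGroup.mk' N).comp (e.toMonoidHom.comp (PresentedGroup.mk R))) w
    rw [hgmk]
    refine DFunLike.congr_fun (FreeGroup.ext_hom _ _ fun a => ?_) w
    exact PresentedGroup.toGroup.of h1

theorem center_eq_zpowers :
    Subgroup.center (Matrix.symplecticGroup (Fin 2) F) = Subgroup.zpowers (MA * MA) := by
  have hval : ((MA : Matrix.symplecticGroup (Fin 2) F) * MA).1 = -1 := by
    simp only [Submonoid.coe_mul, coe_MA]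
    ext i j
    rcases i with i | i <;> rcases j with j | j <;> fin_cases i <;> fin_cases j <;>
      simp [mA, Matrix.mul_apply, Fintype.sum_sum_type, Fin.sum_univ_two]
  have hmem : (MA : Matrix.symplecticGroup (Fin 2) F) * MA ∈ Subgroup.center (Matrix.symplecticGroup (Fin 2) F) :=
    Subgroup.mem_center_iff.2 fun g => Subtype.ext (by
      show g.1 * (MA * MA : Matrix.symplecticGroup (Fin 2) F).1 = (MA * MA : Matrix.symplecticGroup (Fin 2) F).1 * g.1
      rw [hval]; simp)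
  symm
  refine Subgroup.eq_of_le_of_card_ge (Subgroup.zpowers_le.2 hmem) ?_
  rw [Cfsg.Agent.S0246.result rfl 2 (by norm_num), Nat.card_zpowers]
  set z : Matrix.symplecticGroup (Fin 2) F := MA * MA
  have hz : orderOf z ≠ 0 := (orderOf_pos z).ne'
  by_cases h1 : orderOf z = 1
  · rw [h1]
    have hzz : z = 1 := orderOf_eq_one_iff.1 h1
    have hm : (-1 : F) = 1 := by
      have := congrFun (congrFun (congrArg Subtype.val hzz) (.inl 0)) (.inl 0)
      rw [hval, coe_one'] at this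
      simpa using this
    obtain ⟨p, hchar⟩ := CharP.exists F
    obtain ⟨f, hpp, hqf⟩ := FiniteField.card F p
    have h2 : (2 : F) = 0 := by linear_combination -hm
    have hp2 : p = 2 := by
      have : ((2 : ℕ) : F) = 0 := by exact_mod_cast h2
      exact (Nat.prime_dvd_prime_iff_eq hpp Nat.prime_two).1 ((CharP.cast_eq_zero_iff F p 2).1 this)
    subst hp2
    have heven : 2 ∣ Fintype.card F := hqf ▸ dvd_pow_self 2 f.ne_zero
    have : Nat.Coprime 2 (Fintype.card F - 1) := by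
      rw [Nat.prime_two.coprime_iff_not_dvd]
      have := Fintype.one_lt_card (α := F)
      omega
    exact this.le
  · exact (Nat.le_of_dvd two_pos (Nat.gcd_dvd_left _ _)).trans (by omega)

theorem sp_four_pres :
    (∃ rels : Finset (FreeGroup (Fin 6)), rels.card ≤ 35 ∧
      Nonempty (PresentedGroup (↑rels : Set (FreeGroup (Fin 6))) ≃* Matrix.symplecticGroup (Fin 2) F)) ∧
    (∃ rels : Finset (FreeGroup (Fin 6)), rels.card ≤ 36 ∧
      Nonempty (PresentedGroup (↑rels : Set (FreeGroup (Fin 6))) ≃* Cfsg.PSp 2 F)) := by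
  classical
  obtain ⟨rs, hlen, ⟨E⟩, e, he⟩ := sp_four_model (F := F)
  have hset : (↑rs.toFinset : Set (FreeGroup (Fin 6))) = {r | r ∈ rs} := by ext r; simp
  refine ⟨⟨rs.toFinset, ?_, ?_⟩, ⟨insert (fA * fA) rs.toFinset, ?_, ?_⟩⟩
  · have := List.toFinset_card_le rs; omega
  · rw [hset]; exact ⟨E⟩
  · have := List.toFinset_card_le rs
    have := Finset.card_insert_le (fA * fA) rs.toFinset
    omega
  · rw [Finset.coe_insert, hset]
    exact presented_insert _ _ e _ (by rw [he]; exact center_eq_zpowers)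

end Cfsg.Agent.KnownA.Pres4
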