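import Cfsg.Agent.Suzuki.SpFourSplit
import Cfsg.Agent.S1077

/-! A group with the Steinberg relations of type `B₂` mapping onto `Sp₄` is isomorphic to it. -/

set_option autoImplicit false
set_option linter.unusedSectionVars false

universe u

namespace Cfsg.Agent.KnownA.Pres4

open Cfsg.Lie Cfsg.Agent.Forms

variable {F : Type u} [Field F] [Fintype F]

/-- The generators of Steinberg's group in the symplectic group. -/
noncomputable def Φ : FreeGroup (Fin chevB2.nroots × F) →* Matrix.symplecticGroup (Fin 2) F :=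
  FreeGroup.lift fun p => rootU F p.1 p.2

theorem mem_stGroup : chevB2 ∈ [chevG2, chevB2, chevD4, chevF4, chevE6, chevE7, chevE8] := by simp

theorem stRels_central {g : FreeGroup (Fin chevB2.nroots × F)} (hg : g ∈ chevB2.steinbergRels F) :
    Φ g ∈ Subgroup.center (Matrix.symplecticGroup (Fin 2) F) := by
  obtain ⟨θ, -, -, hθ⟩ := Cfsg.Agent.S1077.result (K := F) chevB2 mem_stGroup
  have key : (chevB2.group F).subtype.comp (θ.comp (PresentedGroup.mk (chevB2.steinbergRels F))) =
      (adHom F).comp Φ := by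
    refine FreeGroup.ext_hom _ _ fun p => Units.ext ?_
    have h := hθ p.1.val p.2 p.1.isLt
    have e : chevB2.stGen F p.1.val p.2 = PresentedGroup.mk (chevB2.steinbergRels F) (FreeGroup.of p) := by
      simp [ChevalleyDatum.stGen, ChevalleyDatum.stX, p.1.isLt]
    rw [e] at h
    refine h.trans ?_
    show _ = adMat F (Φ (FreeGroup.of p))
    rw [Φ, FreeGroup.lift_apply_of, ChevalleyDatum.x, dif_pos p.1.isLt]
    exact (adMat_rootU F p.1 p.2).symm
  rw [← ker_adHom, MonoidHom.mem_ker]
  refine (DFunLike.congr_fun key g).symm.trans ?_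
  show ((θ (PresentedGroup.mk _ g) : chevB2.group F) : GL chevB2.Idx F) = 1
  rw [PresentedGroup.one_of_mem hg, map_one]
  rfl

theorem relsAB_central {g : FreeGroup (Fin chevB2.nroots × F)} (hg : g ∈ chevB2.steinbergRelsAB F) :
    Φ g ∈ Subgroup.center (Matrix.symplecticGroup (Fin 2) F) :=
  stRels_central (Or.inl hg)

theorem st_finite_card :
    Finite (chevB2.SteinbergGroup F) ∧
      Nat.card (chevB2.SteinbergGroup F) ≤ Nat.card (Matrix.symplecticGroup (Fin 2) F) := by
  obtain ⟨θ, hθ, hθk, -⟩ := Cfsg.Agent.S1077.result (K := F) chevB2 mem_stGroup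
  let π₁ := ((chevB2EquivPSp (F := F)).toMonoidHom).comp
    (QuotientGroup.mk' (Subgroup.center (Matrix.symplecticGroup (Fin 2) F)))
  have hπ₁ : Function.Surjective π₁ :=
    (chevB2EquivPSp (F := F)).surjective.comp (QuotientGroup.mk'_surjective _)
  have hk₁ : π₁.ker = Subgroup.center (Matrix.symplecticGroup (Fin 2) F) := by
    ext x
    simp [π₁]
  have hc2 : Nat.card (Subgroup.center (Matrix.symplecticGroup (Fin 2) F)) = Nat.gcd 2 (Fintype.card F - 1) :=
    Cfsg.Agent.S0246.result rfl 2 (by norm_num)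
  have : Finite θ.ker := by
    rw [hθk, Cfsg.Agent.KnownA.Cover.center_eq_map Cfsg.Agent.Chev.certB2 Cfsg.Agent.KnownA.Cover.cornerB2
      Cfsg.Agent.Chev.coxB2]
    exact Finite.of_surjective _ (MonoidHom.subgroupMap_surjective _ _)
  have : Finite ↥(chevB2.group F) := inferInstance
  have : Finite (chevB2.SteinbergGroup F ⧸ θ.ker) :=
    Finite.of_equiv _ (QuotientGroup.quotientKerEquivOfSurjective θ hθ).symm.toEquiv
  refine ⟨Finite.of_equiv _ (Subgroup.groupEquivQuotientProdSubgroup (s := θ.ker)).symm, ?_⟩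
  rw [Subgroup.card_eq_card_quotient_mul_card_subgroup θ.ker,
    Subgroup.card_eq_card_quotient_mul_card_subgroup π₁.ker,
    Nat.card_congr (QuotientGroup.quotientKerEquivOfSurjective θ hθ).toEquiv,
    Nat.card_congr (QuotientGroup.quotientKerEquivOfSurjective π₁ hπ₁).toEquiv, hθk, hk₁, hc2]
  exact Nat.mul_le_mul_left _ Cfsg.Agent.Suzuki.SpSt.card_center_B2_le

theorem cover_of_all_one (h01 : ∀ t : F, t = 0 ∨ t = 1) :
    ∀ g ∈ chevB2.steinbergRels F, PresentedGroup.mk (chevB2.steinbergRelsAB F) g = 1 := by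
  rintro g (hg | ⟨r, t₁, t₂, hr, h1, h2, rfl⟩)
  · exact PresentedGroup.one_of_mem hg
  rw [(h01 t₁).resolve_left h1, (h01 t₂).resolve_left h2, mul_one, mul_inv_cancel_right]
  have hm1 : (-1 : F) = 1 := (h01 (-1)).resolve_left (neg_ne_zero.mpr one_ne_zero)
  have hsq : ∀ s : ℕ, s < chevB2.nroots → PresentedGroup.mk (chevB2.steinbergRelsAB F) (chevB2.stX s (1 : F)) *
      PresentedGroup.mk (chevB2.steinbergRelsAB F) (chevB2.stX s (1 : F)) = 1 := by
    intro s hs
    have e : PresentedGroup.mk (chevB2.steinbergRelsAB F) (chevB2.stX s (1 : F) * chevB2.stX s 1 *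
        (chevB2.stX s ((1 : F) + 1))⁻¹) = 1 := PresentedGroup.one_of_mem (Or.inl ⟨s, 1, 1, hs, rfl⟩)
    have e0 : PresentedGroup.mk (chevB2.steinbergRelsAB F) (chevB2.stX s (0 : F) * chevB2.stX s 0 *
        (chevB2.stX s ((0 : F) + 0))⁻¹) = 1 := PresentedGroup.one_of_mem (Or.inl ⟨s, 0, 0, hs, rfl⟩)
    rw [add_zero, mul_inv_cancel_right] at e0
    rw [map_mul, map_mul, map_inv, show (1 : F) + 1 = 0 by rw [← eq_neg_iff_add_eq_zero, hm1], e0, inv_one, mul_one] at e
    exact e
  have hneg : chevB2.neg r < chevB2.nroots := (by decide : ∀ r < chevB2.nroots, chevB2.neg r < chevB2.nroots) r hr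
  have hr' := hsq r hr
  have hn' := hsq _ hneg
  simp only [ChevalleyDatum.stH, ChevalleyDatum.hWord, ChevalleyDatum.nWord, ChevalleyDatum.stWord, List.cons_append,
    List.nil_append, List.map_cons, List.map_nil, List.prod_cons, List.prod_nil, inv_one, mul_one, hm1,
    map_mul]
  rw [← mul_assoc (PresentedGroup.mk _ (chevB2.stX r (1 : F))) (PresentedGroup.mk _ (chevB2.stX r (1 : F))), hr', one_mul,
    ← mul_assoc (PresentedGroup.mk _ (chevB2.stX (chevB2.neg r) (1 : F))), hn', one_mul, hr']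

theorem cover_finite_card :
    Finite (chevB2.SteinbergCover F) ∧
      Nat.card (chevB2.SteinbergCover F) ≤ Nat.card (Matrix.symplecticGroup (Fin 2) F) := by
  obtain ⟨hfin, hle⟩ := st_finite_card (F := F)
  by_cases hx : ∃ x : F, x ≠ 0 ∧ x ≠ 1
  · obtain ⟨e, -⟩ := Cfsg.Agent.S2397.result (K := F) chevB2 mem_stGroup (fun _ => hx)
    exact ⟨Finite.of_equiv _ e.symm.toEquiv, (Nat.card_congr e.toEquiv).trans_le hle⟩
  · push Not at hx
    have h01 : ∀ t : F, t = 0 ∨ t = 1 := fun t => (eq_or_ne t 0).imp id (hx t)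
    set τ : chevB2.SteinbergGroup F →* chevB2.SteinbergCover F :=
      PresentedGroup.toGroup (f := fun p => PresentedGroup.of p) (fun g hg => by
        rw [show FreeGroup.lift (fun p => PresentedGroup.of (rels := chevB2.steinbergRelsAB F) p) =
          PresentedGroup.mk (chevB2.steinbergRelsAB F) from FreeGroup.ext_hom _ _ fun p => by simp [PresentedGroup.of]]
        exact cover_of_all_one h01 g hg)
    have hsurj : Function.Surjective τ := by
      rw [← MonoidHom.range_eq_top, eq_top_iff, ← PresentedGroup.closure_range_of, Subgroup.closure_le]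
      rintro _ ⟨p, rfl⟩
      exact ⟨PresentedGroup.of p, PresentedGroup.toGroup.of _⟩
    exact ⟨Finite.of_surjective _ hsurj, (Nat.card_le_card_of_surjective _ hsurj).trans hle⟩

theorem bijective_of_rels {G : Type*} [Group G] (ψ : G →* Matrix.symplecticGroup (Fin 2) F) (X : Fin 8 → F → G)
    (hψ : ∀ r t, ψ (X r t) = rootU F r t)
    (hR : ∀ g ∈ chevB2.steinbergRelsAB F, FreeGroup.lift (fun p : Fin chevB2.nroots × F => X p.1 p.2) g = 1)
    (hgen : Subgroup.closure {g | ∃ r t, g = X r t} = ⊤) : Function.Bijective ψ := by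
  obtain ⟨hfin, hle⟩ := cover_finite_card (F := F)
  set σ : chevB2.SteinbergCover F →* G := PresentedGroup.toGroup hR
  have hσ : Function.Surjective σ := by
    rw [← MonoidHom.range_eq_top, eq_top_iff, ← hgen, Subgroup.closure_le]
    rintro _ ⟨r, t, rfl⟩
    exact ⟨PresentedGroup.of (r, t), PresentedGroup.toGroup.of _⟩
  have hcomp : Function.Surjective (ψ.comp σ) := by
    rw [← MonoidHom.range_eq_top, eq_top_iff, ← rootGen_eq_top, rootGen, Subgroup.closure_le]
    rintro _ ⟨r, t, rfl⟩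
    exact ⟨PresentedGroup.of (r, t), by rw [MonoidHom.comp_apply, PresentedGroup.toGroup.of]; exact hψ r t⟩
  have hbij := hcomp.bijective_of_nat_card_le hle
  refine ⟨fun a b hab => ?_, fun z => ?_⟩
  · obtain ⟨a, rfl⟩ := hσ a
    obtain ⟨b, rfl⟩ := hσ b
    rw [hbij.1 hab]
  · obtain ⟨a, ha⟩ := hbij.2 z
    exact ⟨σ a, ha⟩

end Cfsg.Agent.KnownA.Pres4
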