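import Cfsg.Agent.Forms.SpFourRoots
import Cfsg.Agent.KnownA.Pres3.Fill

/-! The eight root subgroups of type `B₂` from two of them, two Weyl elements and a torus. -/

set_option autoImplicit false
set_option linter.unusedSectionVars false

namespace Cfsg.Agent.KnownA.Pres4

open Cfsg.Agent.Forms

variable {G : Type*} [Group G] {F : Type*} [Field F] [Fintype F]

/-- The first Weyl matrix. -/
def mA : Matrix (Fin 2 ⊕ Fin 2) (Fin 2 ⊕ Fin 2) F := Matrix.fromBlocks !![0, 1; -1, 0] 0 0 !![0, 1; -1, 0]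

/-- The second Weyl matrix. -/
def mB : Matrix (Fin 2 ⊕ Fin 2) (Fin 2 ⊕ Fin 2) F :=
  Matrix.fromBlocks !![1, 0; 0, 0] !![0, 0; 0, 1] !![0, 0; 0, -1] !![1, 0; 0, 0]

/-- The first torus matrix. -/
def mHa (μ : Fˣ) : Matrix (Fin 2 ⊕ Fin 2) (Fin 2 ⊕ Fin 2) F :=
  Matrix.diagonal (Sum.elim ![(μ : F), ((μ⁻¹ : Fˣ) : F)] ![((μ⁻¹ : Fˣ) : F), (μ : F)])

/-- The second torus matrix. -/
def mHb (μ : Fˣ) : Matrix (Fin 2 ⊕ Fin 2) (Fin 2 ⊕ Fin 2) F :=
  Matrix.diagonal (Sum.elim ![1, (μ : F)] ![1, ((μ⁻¹ : Fˣ) : F)])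

/-- Two root subgroups with Weyl elements and a torus over the symplectic group. -/
structure Sys (G : Type*) [Group G] (F : Type*) [Field F] [Fintype F] where
  ψ : G →* Matrix.symplecticGroup (Fin 2) F
  x : F → G
  y : F → G
  wa : G
  wb : G
  ha : G
  hb : G
  μ : Fˣ
  x_add : ∀ a b, x (a + b) = x a * x b
  y_add : ∀ a b, y (a + b) = y a * y b
  ψx : ∀ t, ψ (x t) = rootU F 5 t
  ψy : ∀ t, ψ (y t) = rootU F 4 t
  ψwa : (ψ wa).1 = mA
  ψwb : (ψ wb).1 = mB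
  ψha : (ψ ha).1 = mHa μ
  ψhb : (ψ hb).1 = mHb μ
  hgen : ∀ a : F, a ≠ 0 → ∃ n : ℕ, ((μ⁻¹ : Fˣ) : F) ^ n = a
  hspan : Cfsg.Agent.KnownA.Pres3.Spans ((μ : F) ^ 2) [1]
  ha_x : ∀ t, ∃ t', ha * x t * ha⁻¹ = x t'
  hb_x : ∀ t, hb * x t * hb⁻¹ = x (((μ⁻¹ : Fˣ) : F) * t)
  ha_y : ∀ t, ∃ t', ha * y t * ha⁻¹ = y t'
  hb_y : ∀ t, hb * y t * hb⁻¹ = y ((μ : F) ^ 2 * t)
  wa_ha : wa * ha * wa⁻¹ ∈ Subgroup.closure ({ha, hb} : Set G)
  wa_hb : wa * hb * wa⁻¹ ∈ Subgroup.closure ({ha, hb} : Set G)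
  wb_ha : wb * ha * wb⁻¹ ∈ Subgroup.closure ({ha, hb} : Set G)
  wb_hb : wb * hb * wb⁻¹ ∈ Subgroup.closure ({ha, hb} : Set G)
  wa_sq : wa * wa ∈ Subgroup.closure ({ha, hb} : Set G)
  wb_sq : wb * wb ∈ Subgroup.closure ({ha, hb} : Set G)
  braid : wa * wb * (wa * wb) = wb * wa * (wb * wa)
  stab_x : wb⁻¹ * wa * wb * x 1 * (wb⁻¹ * wa * wb)⁻¹ = x (-1)
  stab_y : wa⁻¹ * wb * wa * y 1 * (wa⁻¹ * wb * wa)⁻¹ = y 1

theorem rootU_injective (r : Fin 8) : Function.Injective (rootU F r) := by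
  intro a b h
  have h' : a • rootE F r = b • rootE F r := add_left_cancel (congrArg Subtype.val h)
  have hne : ∃ i j, rootE F r i j = 1 ∨ rootE F r i j = -1 := by
    fin_cases r
    · exact ⟨.inr 0, .inl 0, Or.inr (by simp [rootE])⟩
    · exact ⟨.inr 0, .inl 1, Or.inr (by simp [rootE])⟩
    · exact ⟨.inl 1, .inl 0, Or.inl (by simp [rootE])⟩
    · exact ⟨.inr 1, .inl 1, Or.inl (by simp [rootE])⟩
    · exact ⟨.inl 1, .inr 1, Or.inl (by simp [rootE])⟩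
    · exact ⟨.inl 0, .inl 1, Or.inl (by simp [rootE])⟩
    · exact ⟨.inl 0, .inr 1, Or.inr (by simp [rootE])⟩
    · exact ⟨.inl 0, .inr 0, Or.inr (by simp [rootE])⟩
  obtain ⟨i, j, hij | hij⟩ := hne <;> have := congrFun (congrFun h' i) j <;>
    simpa [hij] using this

/-- The elements mapping a one-parameter subgroup into itself. -/
def fix (x : F → G) (hx : Function.Injective x) : Subgroup G where
  carrier := {g | ∀ t, ∃ t', g * x t * g⁻¹ = x t'}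
  one_mem' t := ⟨t, by simp⟩
  mul_mem' {a b} ha hb t := by
    obtain ⟨t₁, h₁⟩ := hb t
    obtain ⟨t₂, h₂⟩ := ha t₁
    exact ⟨t₂, by rw [← h₂, ← h₁]; group⟩
  inv_mem' {a} ha t := by
    choose f hf using ha
    have hinj : Function.Injective f := fun p q hpq => hx (by
      have := (hf p).trans ((congrArg x hpq).trans (hf q).symm)
      exact mul_left_cancel (mul_right_cancel this))
    obtain ⟨s, rfl⟩ := Finite.surjective_of_injective hinj t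
    exact ⟨s, by rw [← hf s]; group⟩

namespace Sys

variable (S : Sys G F)

/-- The torus. -/
def T : Subgroup G := Subgroup.closure ({S.ha, S.hb} : Set G)

theorem ha_mem : S.ha ∈ S.T := Subgroup.subset_closure (Or.inl rfl)

theorem hb_mem : S.hb ∈ S.T := Subgroup.subset_closure (Or.inr rfl)

theorem x_inj : Function.Injective S.x := fun a b h => rootU_injective 5 (by rw [← S.ψx, ← S.ψx, h])

theorem y_inj : Function.Injective S.y := fun a b h => rootU_injective 4 (by rw [← S.ψy, ← S.ψy, h])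

/-- The stabilizer of the short root subgroup. -/
def fX : Subgroup G := fix S.x S.x_inj

/-- The stabilizer of the long root subgroup. -/
def fY : Subgroup G := fix S.y S.y_inj

theorem T_le_fX : S.T ≤ S.fX :=
  (Subgroup.closure_le _).2 (by
    rintro g (rfl | rfl) t
    exacts [S.ha_x t, ⟨_, S.hb_x t⟩])

theorem T_le_fY : S.T ≤ S.fY :=
  (Subgroup.closure_le _).2 (by
    rintro g (rfl | rfl) t
    exacts [S.ha_y t, ⟨_, S.hb_y t⟩])

theorem mem_normalizer {w : G} (h1 : w * S.ha * w⁻¹ ∈ S.T) (h2 : w * S.hb * w⁻¹ ∈ S.T) (h3 : w * w ∈ S.T) :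
    w ∈ Subgroup.normalizer (S.T : Set G) := by
  have h : ∀ τ ∈ S.T, w * τ * w⁻¹ ∈ S.T := by
    intro τ hτ
    have hle : S.T ≤ S.T.comap (MulAut.conj w).toMonoidHom := (Subgroup.closure_le _).2 (by
      rintro g (rfl | rfl)
      exacts [h1, h2])
    exact hle hτ
  rw [Subgroup.mem_normalizer_iff]
  refine fun τ => ⟨h τ, fun hτ => ?_⟩
  have := mul_mem (mul_mem (inv_mem h3) (h _ hτ)) h3
  rwa [show (w * w)⁻¹ * (w * (w * τ * w⁻¹) * w⁻¹) * (w * w) = τ by group] at this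

theorem wa_norm : S.wa ∈ Subgroup.normalizer (S.T : Set G) := S.mem_normalizer S.wa_ha S.wa_hb S.wa_sq

theorem wb_norm : S.wb ∈ Subgroup.normalizer (S.T : Set G) := S.mem_normalizer S.wb_ha S.wb_hb S.wb_sq

theorem conj_T {n τ : G} (hn : n ∈ Subgroup.normalizer (S.T : Set G)) (hτ : τ ∈ S.T) : n⁻¹ * τ * n ∈ S.T := by
  have := (Subgroup.mem_normalizer_iff.1 (inv_mem hn) τ).1 hτ
  rwa [inv_inv] at this

/-- The short reflection fixing the short root. -/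
def cx : G := S.wb⁻¹ * S.wa * S.wb

/-- The long reflection fixing the long root. -/
def cy : G := S.wa⁻¹ * S.wb * S.wa

theorem cx_norm : S.cx ∈ Subgroup.normalizer (S.T : Set G) :=
  mul_mem (mul_mem (inv_mem S.wb_norm) S.wa_norm) S.wb_norm

theorem cy_norm : S.cy ∈ Subgroup.normalizer (S.T : Set G) :=
  mul_mem (mul_mem (inv_mem S.wa_norm) S.wb_norm) S.wa_norm

theorem hb_pow_x (n : ℕ) (t : F) : S.hb ^ n * S.x t * (S.hb ^ n)⁻¹ = S.x (((S.μ⁻¹ : Fˣ) : F) ^ n * t) := by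
  induction n with
  | zero => simp
  | succ n ih => rw [pow_succ' (_ : F), mul_assoc (((S.μ⁻¹ : Fˣ) : F)), ← S.hb_x, ← ih, pow_succ']; group

theorem x_zero : S.x 0 = 1 := by
  have := S.x_add 0 0
  rw [add_zero] at this
  exact left_eq_mul.mp this

theorem y_zero : S.y 0 = 1 := by
  have := S.y_add 0 0
  rw [add_zero] at this
  exact left_eq_mul.mp this

theorem cx_mem : S.cx ∈ S.fX := by
  intro t
  by_cases ht : t = 0
  · exact ⟨0, by rw [ht, x_zero, mul_one, mul_inv_cancel]⟩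
  obtain ⟨n, hn⟩ := S.hgen t ht
  obtain ⟨t', ht'⟩ := S.T_le_fX ((Subgroup.mem_normalizer_iff.1 S.cx_norm _).1 (pow_mem S.hb_mem n)) (-1)
  refine ⟨t', ?_⟩
  rw [← ht', ← S.stab_x, show S.wb⁻¹ * S.wa * S.wb = S.cx from rfl]
  conv_lhs => rw [← hn, ← mul_one (((S.μ⁻¹ : Fˣ) : F) ^ n), ← S.hb_pow_x]
  group

theorem cy_mem : S.cy ∈ S.fY := by
  refine S.hspan (fun t => ∃ t', S.cy * S.y t * S.cy⁻¹ = S.y t') ⟨0, by rw [y_zero, mul_one, mul_inv_cancel]⟩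
    (fun a b ha hb => ?_) (fun t ht => ?_) (fun b hb => ?_)
  · obtain ⟨a', ha⟩ := ha
    obtain ⟨b', hb⟩ := hb
    exact ⟨a' + b', by rw [S.y_add, S.y_add, ← ha, ← hb]; group⟩
  · obtain ⟨t', ht⟩ := ht
    obtain ⟨t'', ht''⟩ := S.T_le_fY ((Subgroup.mem_normalizer_iff.1 S.cy_norm _).1 S.hb_mem) t'
    exact ⟨t'', by rw [← ht'', ← ht, ← S.hb_y]; group⟩
  · rw [List.mem_singleton.1 hb]
    exact ⟨1, S.stab_y⟩

/-- The root elements, in the order of the table of type `B₂`. -/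
def X : Fin 8 → F → G :=
  ![fun t => S.wa * S.wb * S.y t * (S.wa * S.wb)⁻¹, fun t => S.wb * S.wa * S.x (-t) * (S.wb * S.wa)⁻¹,
    fun t => S.wa * S.x (-t) * S.wa⁻¹, fun t => S.wb * S.y (-t) * S.wb⁻¹, S.y, S.x,
    fun t => S.wb * S.x t * S.wb⁻¹, fun t => S.wa * S.y (-t) * S.wa⁻¹]

set_option maxHeartbeats 4000000 in
theorem ψX (r : Fin 8) (t : F) : S.ψ (S.X r t) = rootU F r t := by
  fin_cases r <;> simp only [X, Fin.zero_eta, Fin.mk_one, Fin.isValue, Fin.reduceFinMk, Matrix.cons_val_zero,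
    Matrix.cons_val_one, Matrix.cons_val, map_mul, map_inv, S.ψx, S.ψy]
  all_goals
    rw [mul_inv_eq_iff_eq_mul]
    refine Subtype.ext ?_
    simp only [Submonoid.coe_mul, rootU_val, S.ψwa, S.ψwb]
    ext i j
    rcases i with i | i <;> rcases j with j | j <;> fin_cases i <;> fin_cases j <;>
      simp [mA, mB, rootE, Matrix.mul_apply, Fintype.sum_sum_type, Fin.sum_univ_two, Matrix.one_apply]

theorem X_inj (r : Fin 8) : Function.Injective (S.X r) := fun a b h => rootU_injective r (by rw [← S.ψX, ← S.ψX, h])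

theorem X_add (r : Fin 8) (a b : F) : S.X r (a + b) = S.X r a * S.X r b := by
  fin_cases r <;> simp only [X, Fin.zero_eta, Fin.mk_one, Fin.isValue, Fin.reduceFinMk, Matrix.cons_val_zero,
    Matrix.cons_val_one, Matrix.cons_val, neg_add, S.x_add, S.y_add] <;> group

theorem X_zero (r : Fin 8) : S.X r 0 = 1 := by
  have := S.X_add r 0 0
  rw [add_zero] at this
  exact left_eq_mul.mp this

theorem X_neg (r : Fin 8) (t : F) : S.X r (-t) = (S.X r t)⁻¹ :=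
  eq_inv_of_mul_eq_one_left (by rw [← S.X_add, neg_add_cancel, S.X_zero])

/-- Conjugation by `g` carries one root subgroup to another. -/
def Maps (g : G) (r r' : Fin 8) : Prop := ∀ t, ∃ t', g * S.X r t * g⁻¹ = S.X r' t'

theorem Maps.eq {g : G} {r r' : Fin 8} (h : S.Maps g r r') {t t' : F}
    (e : S.ψ g * rootU F r t = rootU F r' t' * S.ψ g) : g * S.X r t * g⁻¹ = S.X r' t' := by
  obtain ⟨s, hs⟩ := h t
  have hs' := congrArg S.ψ hs
  rw [map_mul, map_mul, map_inv, S.ψX, S.ψX, e, mul_inv_cancel_right] at hs'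
  rw [hs, rootU_injective r' hs']

theorem maps_of {g n n' : G} {r r' : Fin 8} {f : F → G} {σ σ' : F → F}
    (hr : ∀ t, S.X r t = n * f (σ t) * n⁻¹) (hr' : ∀ t, S.X r' t = n' * f (σ' t) * n'⁻¹)
    (hσ : ∀ t, σ' (σ' t) = t) (hm : ∀ t, ∃ t', n'⁻¹ * g * n * f t * (n'⁻¹ * g * n)⁻¹ = f t') :
    S.Maps g r r' := by
  intro t
  obtain ⟨t', ht'⟩ := hm (σ t)
  refine ⟨σ' t', ?_⟩
  rw [hr, hr', hσ, ← ht']
  group

/-- The permutation of the roots by the first Weyl element. -/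
def pa : Fin 8 → Fin 8 := ![3, 1, 5, 0, 7, 2, 6, 4]

/-- The permutation of the roots by the second Weyl element. -/
def pb : Fin 8 → Fin 8 := ![0, 2, 1, 4, 3, 6, 5, 7]

theorem X0 (t : F) : S.X 0 t = S.wa * S.wb * S.y (id t) * (S.wa * S.wb)⁻¹ := rfl
theorem X1 (t : F) : S.X 1 t = S.wb * S.wa * S.x (-t) * (S.wb * S.wa)⁻¹ := rfl
theorem X2 (t : F) : S.X 2 t = S.wa * S.x (-t) * S.wa⁻¹ := rfl
theorem X3 (t : F) : S.X 3 t = S.wb * S.y (-t) * S.wb⁻¹ := rfl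
theorem X4 (t : F) : S.X 4 t = 1 * S.y (id t) * 1⁻¹ := by show S.y t = _; simp
theorem X5 (t : F) : S.X 5 t = 1 * S.x (id t) * 1⁻¹ := by show S.x t = _; simp
theorem X6 (t : F) : S.X 6 t = S.wb * S.x (id t) * S.wb⁻¹ := rfl
theorem X7 (t : F) : S.X 7 t = S.wa * S.y (-t) * S.wa⁻¹ := rfl

theorem maps_wa (r : Fin 8) : S.Maps S.wa r (pa r) := by
  have hb : S.wb * S.wa * S.wb⁻¹ = S.wb * S.wb * S.cx * (S.wb * S.wb)⁻¹ := by rw [cx]; group
  have e1 : (S.wb * S.wa)⁻¹ * S.wa * (S.wb * S.wa) = S.wb * S.wa * S.wb⁻¹ := by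
    calc (S.wb * S.wa)⁻¹ * S.wa * (S.wb * S.wa)
        = (S.wb * S.wa)⁻¹ * (S.wa * S.wb * (S.wa * S.wb)) * S.wb⁻¹ := by group
      _ = _ := by rw [S.braid]; group
  fin_cases r
  · exact S.maps_of S.X0 S.X3 neg_neg (S.T_le_fY (by
      rw [show S.wb⁻¹ * S.wa * (S.wa * S.wb) = S.wb⁻¹ * (S.wa * S.wa) * S.wb by group]
      exact S.conj_T S.wb_norm S.wa_sq))
  · refine S.maps_of S.X1 S.X1 neg_neg ?_
    show (S.wb * S.wa)⁻¹ * S.wa * (S.wb * S.wa) ∈ S.fX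
    rw [e1, hb]
    exact mul_mem (mul_mem (S.T_le_fX S.wb_sq) S.cx_mem) (inv_mem (S.T_le_fX S.wb_sq))
  · exact S.maps_of S.X2 S.X5 (fun t => rfl) (S.T_le_fX (by simpa [T] using S.wa_sq))
  · exact S.maps_of S.X3 S.X0 (fun t => rfl) (S.T_le_fY (by simp [mul_assoc]  ))
  · exact S.maps_of S.X4 S.X7 neg_neg (S.T_le_fY (by simp  ))
  · exact S.maps_of S.X5 S.X2 neg_neg (S.T_le_fX (by simp  ))
  · exact S.maps_of S.X6 S.X6 (fun t => rfl) S.cx_mem
  · exact S.maps_of S.X7 S.X4 (fun t => rfl) (S.T_le_fY (by simpa [T] using S.wa_sq))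

theorem maps_wb (r : Fin 8) : S.Maps S.wb r (pb r) := by
  have ha : S.wa * S.wb * S.wa⁻¹ = S.wa * S.wa * S.cy * (S.wa * S.wa)⁻¹ := by rw [cy]; group
  have e0 : (S.wa * S.wb)⁻¹ * S.wb * (S.wa * S.wb) = S.wa * S.wb * S.wa⁻¹ := by
    calc (S.wa * S.wb)⁻¹ * S.wb * (S.wa * S.wb)
        = (S.wa * S.wb)⁻¹ * (S.wb * S.wa * (S.wb * S.wa)) * S.wa⁻¹ := by group
      _ = _ := by rw [← S.braid]; group
  fin_cases r
  · refine S.maps_of S.X0 S.X0 (fun t => rfl) ?_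
    show (S.wa * S.wb)⁻¹ * S.wb * (S.wa * S.wb) ∈ S.fY
    rw [e0, ha]
    exact mul_mem (mul_mem (S.T_le_fY S.wa_sq) S.cy_mem) (inv_mem (S.T_le_fY S.wa_sq))
  · exact S.maps_of S.X1 S.X2 neg_neg (S.T_le_fX (by
      rw [show S.wa⁻¹ * S.wb * (S.wb * S.wa) = S.wa⁻¹ * (S.wb * S.wb) * S.wa by group]
      exact S.conj_T S.wa_norm S.wb_sq))
  · exact S.maps_of S.X2 S.X1 neg_neg (S.T_le_fX (by simp [mul_assoc]  ))
  · exact S.maps_of S.X3 S.X4 (fun t => rfl) (S.T_le_fY (by simpa [T] using S.wb_sq))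
  · exact S.maps_of S.X4 S.X3 neg_neg (S.T_le_fY (by simp  ))
  · exact S.maps_of S.X5 S.X6 (fun t => rfl) (S.T_le_fX (by simp  ))
  · exact S.maps_of S.X6 S.X5 (fun t => rfl) (S.T_le_fX (by simpa [T] using S.wb_sq))
  · exact S.maps_of S.X7 S.X7 neg_neg S.cy_mem

theorem maps_T {τ : G} (hτ : τ ∈ S.T) (r : Fin 8) : S.Maps τ r r := by
  have hn : ∀ {n : G}, n ∈ Subgroup.normalizer (S.T : Set G) → n⁻¹ * τ * n ∈ S.T := fun h => S.conj_T h hτ
  fin_cases r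
  exacts [S.maps_of S.X0 S.X0 (fun t => rfl) (S.T_le_fY (hn (mul_mem S.wa_norm S.wb_norm))),
    S.maps_of S.X1 S.X1 neg_neg (S.T_le_fX (hn (mul_mem S.wb_norm S.wa_norm))),
    S.maps_of S.X2 S.X2 neg_neg (S.T_le_fX (hn S.wa_norm)),
    S.maps_of S.X3 S.X3 neg_neg (S.T_le_fY (hn S.wb_norm)),
    S.maps_of S.X4 S.X4 (fun t => rfl) (S.T_le_fY (hn (one_mem _))),
    S.maps_of S.X5 S.X5 (fun t => rfl) (S.T_le_fX (hn (one_mem _))),
    S.maps_of S.X6 S.X6 (fun t => rfl) (S.T_le_fX (hn S.wb_norm)),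
    S.maps_of S.X7 S.X7 neg_neg (S.T_le_fY (hn S.wa_norm))]

end Sys

end Cfsg.Agent.KnownA.Pres4
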