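import Cfsg.Agent.KnownA.Pres4.Sys
import Cfsg.Agent.KnownA.Pres4.Count

/-! The Steinberg relations of type `B₂` from four commutator relations. -/

set_option autoImplicit false
set_option linter.unusedSectionVars false

namespace Cfsg.Agent.KnownA.Pres4.Sys

open Cfsg.Agent.Forms Cfsg.Lie
open scoped commutatorElement

universe u

variable {G : Type*} [Group G] {F : Type u} [Field F] [Fintype F] (S : Sys G F)

/-- The four commutator relations at one parameter. -/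
structure Base (S : Sys G F) : Prop where
  rel57 : Commute (S.x 1) (S.X 7 1)
  rel47 : Commute (S.y 1) (S.X 7 1)
  rel56 : ∃ k, ⁅S.x 1, S.X 6 1⁆ = S.X 7 k
  rel54 : ∃ c d, ⁅S.x 1, S.y 1⁆ = S.X 6 c * S.X 7 d

set_option maxHeartbeats 2000000 in
theorem hb_eq (t : F) :
    S.hb * S.X 4 t * S.hb⁻¹ = S.X 4 ((S.μ : F) ^ 2 * t) ∧ S.hb * S.X 5 t * S.hb⁻¹ = S.X 5 ((S.μ : F)⁻¹ * t) ∧
    S.hb * S.X 6 t * S.hb⁻¹ = S.X 6 ((S.μ : F) * t) ∧ S.hb * S.X 7 t * S.hb⁻¹ = S.X 7 t := by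
  refine ⟨(S.maps_T S.hb_mem 4).eq _ ?_, (S.maps_T S.hb_mem 5).eq _ ?_, (S.maps_T S.hb_mem 6).eq _ ?_,
    (S.maps_T S.hb_mem 7).eq _ ?_⟩
  all_goals
    refine Subtype.ext ?_
    simp only [Submonoid.coe_mul, rootU_val, S.ψhb]
    ext i j
    rcases i with i | i <;> rcases j with j | j <;> fin_cases i <;> fin_cases j <;>
      simp [mHb, rootE, Matrix.mul_apply, Matrix.diagonal, Fintype.sum_sum_type, Fin.sum_univ_two, Matrix.one_apply,
        pow_two] <;> field_simp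

theorem hab_mem : S.ha * S.hb ∈ S.T := mul_mem S.ha_mem S.hb_mem

theorem habb_mem : S.ha * S.hb * S.hb ∈ S.T := mul_mem S.hab_mem S.hb_mem

set_option maxHeartbeats 2000000 in
theorem hab_eq (t : F) :
    S.ha * S.hb * S.X 4 t * (S.ha * S.hb)⁻¹ = S.X 4 t ∧
    S.ha * S.hb * S.X 7 t * (S.ha * S.hb)⁻¹ = S.X 7 ((S.μ : F) ^ 2 * t) := by
  refine ⟨(S.maps_T S.hab_mem 4).eq _ ?_, (S.maps_T S.hab_mem 7).eq _ ?_⟩
  all_goals
    refine Subtype.ext ?_
    simp only [Submonoid.coe_mul, map_mul, rootU_val, S.ψhb, S.ψha]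
    ext i j
    rcases i with i | i <;> rcases j with j | j <;> fin_cases i <;> fin_cases j <;>
      simp [mHa, mHb, rootE, Matrix.mul_apply, Matrix.diagonal, Fintype.sum_sum_type, Fin.sum_univ_two, Matrix.one_apply,
        pow_two] <;> field_simp

set_option maxHeartbeats 2000000 in
theorem habb_eq (t : F) :
    S.ha * S.hb * S.hb * S.X 5 t * (S.ha * S.hb * S.hb)⁻¹ = S.X 5 t ∧
    S.ha * S.hb * S.hb * S.X 4 t * (S.ha * S.hb * S.hb)⁻¹ = S.X 4 ((S.μ : F) ^ 2 * t) ∧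
    S.ha * S.hb * S.hb * S.X 6 t * (S.ha * S.hb * S.hb)⁻¹ = S.X 6 ((S.μ : F) ^ 2 * t) ∧
    S.ha * S.hb * S.hb * S.X 7 t * (S.ha * S.hb * S.hb)⁻¹ = S.X 7 ((S.μ : F) ^ 2 * t) := by
  refine ⟨(S.maps_T S.habb_mem 5).eq _ ?_, (S.maps_T S.habb_mem 4).eq _ ?_, (S.maps_T S.habb_mem 6).eq _ ?_,
    (S.maps_T S.habb_mem 7).eq _ ?_⟩
  all_goals
    refine Subtype.ext ?_
    simp only [Submonoid.coe_mul, map_mul, rootU_val, S.ψhb, S.ψha]
    ext i j
    rcases i with i | i <;> rcases j with j | j <;> fin_cases i <;> fin_cases j <;>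
      simp [mHa, mHb, rootE, Matrix.mul_apply, Matrix.diagonal, Fintype.sum_sum_type, Fin.sum_univ_two, Matrix.one_apply,
        pow_two] <;> field_simp

theorem conj_comm (g p q : G) : g * ⁅p, q⁆ * g⁻¹ = ⁅g * p * g⁻¹, g * q * g⁻¹⁆ := by
  simp only [commutatorElement_def]; group

theorem comm_mul (p q r : G) : ⁅p, q * r⁆ = ⁅p, q⁆ * (q * ⁅p, r⁆ * q⁻¹) := by
  simp only [commutatorElement_def]; group

theorem comm_of_maps {g : G} {r r' s s' : Fin 8} (h : S.Maps g r r') (h' : S.Maps g s s')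
    (hc : ∀ a b, Commute (S.X r' a) (S.X s' b)) (a b : F) : Commute (S.X r a) (S.X s b) := by
  obtain ⟨a', ha⟩ := h a
  obtain ⟨b', hb⟩ := h' b
  have := hc a' b'
  rw [← ha, ← hb, ← MulAut.conj_apply, ← MulAut.conj_apply] at this
  exact Commute.of_map (MulAut.conj g).injective this

theorem self_comm (r : Fin 8) (a b : F) : Commute (S.X r a) (S.X r b) := by
  show _ * _ = _ * _
  rw [← S.X_add, ← S.X_add, add_comm]

variable (hb : S.Base)

theorem lgen (a : F) (ha : a ≠ 0) : ∃ n : ℕ, ((S.μ : F)⁻¹) ^ n = a := by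
  simpa [Units.val_inv_eq_inv_val] using S.hgen a ha

theorem mu_sq_ne : ((S.μ : F) ^ 2) ≠ 0 := pow_ne_zero 2 S.μ.ne_zero

include hb in
theorem c57 : ∀ a b, Commute (S.X 5 a) (S.X 7 b) := by
  refine Cfsg.Agent.KnownA.Pres3.fill (fun b => by rw [S.X_zero]; exact Commute.one_left _)
    (fun a => by rw [S.X_zero]; exact Commute.one_right _)
    (fun a b b' h h' => by rw [S.X_add]; exact h.mul_right h') (k := 1) one_ne_zero (fun a b h => ?_)
    (fun a b h => ?_) S.lgen S.hspan (fun b hb' => by rw [List.mem_singleton.1 hb']; exact hb.rel57)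
  · rw [one_mul, ← (S.hb_eq a).2.1, ← (S.hb_eq b).2.2.2]
    exact h.map (MulAut.conj S.hb)
  · rw [← (S.habb_eq b).2.2.2, ← (S.habb_eq a).1]
    exact h.map (MulAut.conj (S.ha * S.hb * S.hb))

include hb in
theorem c67 : ∀ a b, Commute (S.X 6 a) (S.X 7 b) :=
  S.comm_of_maps (S.maps_wb 6) (S.maps_wb 7) (S.c57 hb)

include hb in
theorem c46 : ∀ a b, Commute (S.X 4 a) (S.X 6 b) :=
  S.comm_of_maps (S.maps_wa 4) (S.maps_wa 6) (fun a b => (S.c67 hb b a).symm)

include hb in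
theorem c47 : ∀ a b, Commute (S.X 4 a) (S.X 7 b) := by
  have h1 : ∀ t, Commute (S.X 4 1) (S.X 7 t) := by
    refine S.hspan _ ?_ (fun a b h h' => ?_) (fun t h => ?_) (fun b hb' => ?_)
    · rw [S.X_zero]; exact Commute.one_right _
    · rw [S.X_add]; exact h.mul_right h'
    · rw [← (S.hab_eq t).2, ← (S.hab_eq 1).1]
      exact h.map (MulAut.conj (S.ha * S.hb))
    · rw [List.mem_singleton.1 hb']; exact hb.rel47
  refine S.hspan (fun a => ∀ b, Commute (S.X 4 a) (S.X 7 b)) (fun b => by rw [S.X_zero]; exact Commute.one_left _)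
    (fun a a' h h' b => ?_) (fun t h b => ?_) (fun b hb' => ?_)
  · rw [S.X_add]; exact (h b).mul_left (h' b)
  · rw [← (S.hb_eq t).1, ← (S.hb_eq b).2.2.2]
    exact (h b).map (MulAut.conj S.hb)
  · rw [List.mem_singleton.1 hb']; exact h1

include hb in
theorem c56 : ∀ a b, ∃ k, ⁅S.X 5 a, S.X 6 b⁆ = S.X 7 k := by
  refine Cfsg.Agent.KnownA.Pres3.fill (fun b => ⟨0, by simp [S.X_zero]⟩) (fun a => ⟨0, by simp [S.X_zero]⟩)
    (fun a b b' h h' => ?_) (k := (S.μ : F)) S.μ.ne_zero (fun a b h => ?_) (fun a b h => ?_) S.lgen S.hspan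
    (fun b hb' => by rw [List.mem_singleton.1 hb']; exact hb.rel56)
  · obtain ⟨k, hk⟩ := h
    obtain ⟨k', hk'⟩ := h'
    exact ⟨k + k', by rw [S.X_add, comm_mul, hk, hk', (S.c67 hb b k').eq, mul_inv_cancel_right, S.X_add]⟩
  · obtain ⟨k, hk⟩ := h
    exact ⟨k, by rw [← (S.hb_eq a).2.1, ← (S.hb_eq b).2.2.1, ← conj_comm, hk, (S.hb_eq k).2.2.2]⟩
  · obtain ⟨k, hk⟩ := h
    refine ⟨(S.μ : F) ^ 2 * k, ?_⟩
    have e := congrArg (fun z => S.ha * S.hb * S.hb * z * (S.ha * S.hb * S.hb)⁻¹) hk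
    simp only [conj_comm, (S.habb_eq _).1, (S.habb_eq _).2.2.1, (S.habb_eq _).2.2.2] at e
    exact e

include hb in
theorem c54 : ∀ a b, ∃ c d, ⁅S.X 5 a, S.X 4 b⁆ = S.X 6 c * S.X 7 d := by
  refine Cfsg.Agent.KnownA.Pres3.fill (fun b => ⟨0, 0, by simp [S.X_zero]⟩) (fun a => ⟨0, 0, by simp [S.X_zero]⟩)
    (fun a b b' h h' => ?_) (k := (S.μ : F) ^ 2) S.mu_sq_ne (fun a b h => ?_) (fun a b h => ?_) S.lgen S.hspan
    (fun b hb' => by rw [List.mem_singleton.1 hb']; exact hb.rel54)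
  · obtain ⟨c, d, hk⟩ := h
    obtain ⟨c', d', hk'⟩ := h'
    refine ⟨c + c', d + d', ?_⟩
    rw [S.X_add 4, comm_mul, hk, hk', ((S.c46 hb b c').mul_right (S.c47 hb b d')).eq, mul_inv_cancel_right, S.X_add,
      S.X_add]
    calc S.X 6 c * S.X 7 d * (S.X 6 c' * S.X 7 d') = S.X 6 c * (S.X 7 d * S.X 6 c') * S.X 7 d' := by group
      _ = _ := by rw [← (S.c67 hb c' d).eq]; group
  · obtain ⟨c, d, hk⟩ := h
    have e := congrArg (fun z => S.hb * z * S.hb⁻¹) hk
    refine ⟨(S.μ : F) * c, d, ?_⟩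
    rw [show S.hb * (S.X 6 c * S.X 7 d) * S.hb⁻¹ = (S.hb * S.X 6 c * S.hb⁻¹) * (S.hb * S.X 7 d * S.hb⁻¹) by group] at e
    simp only [conj_comm, (S.hb_eq _).1, (S.hb_eq _).2.1, (S.hb_eq _).2.2.1, (S.hb_eq _).2.2.2] at e
    exact e
  · obtain ⟨c, d, hk⟩ := h
    have e := congrArg (fun z => S.ha * S.hb * S.hb * z * (S.ha * S.hb * S.hb)⁻¹) hk
    refine ⟨(S.μ : F) ^ 2 * c, (S.μ : F) ^ 2 * d, ?_⟩
    rw [show S.ha * S.hb * S.hb * (S.X 6 c * S.X 7 d) * (S.ha * S.hb * S.hb)⁻¹ =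
      (S.ha * S.hb * S.hb * S.X 6 c * (S.ha * S.hb * S.hb)⁻¹) *
        (S.ha * S.hb * S.hb * S.X 7 d * (S.ha * S.hb * S.hb)⁻¹) by group] at e
    simp only [conj_comm, (S.habb_eq _).1, (S.habb_eq _).2.1, (S.habb_eq _).2.2.1, (S.habb_eq _).2.2.2] at e
    exact e

/-- The product of the four positive root subgroups. -/
def P (g : G) : Prop := ∃ a b c d, g = S.X 4 a * S.X 5 b * (S.X 6 c * S.X 7 d)

theorem one_P : S.P 1 := ⟨0, 0, 0, 0, by simp [S.X_zero]⟩

include hb in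
theorem P_mul (g : G) (hg : S.P g) (r : Fin 8) (hr : r = 4 ∨ r = 5 ∨ r = 6 ∨ r = 7) (e : F) :
    S.P (g * S.X r e) := by
  have m : ∀ g, S.P g → ∀ c d, S.P (g * (S.X 6 c * S.X 7 d)) := by
    rintro _ ⟨a, b, c', d', rfl⟩ c d
    refine ⟨a, b, c' + c, d' + d, ?_⟩
    rw [S.X_add, S.X_add]
    calc S.X 4 a * S.X 5 b * (S.X 6 c' * S.X 7 d') * (S.X 6 c * S.X 7 d)
        = S.X 4 a * S.X 5 b * (S.X 6 c' * (S.X 7 d' * S.X 6 c) * S.X 7 d) := by group
      _ = _ := by rw [← (S.c67 hb c d').eq]; group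
  have h5 : ∀ g, S.P g → ∀ e, S.P (g * S.X 5 e) := by
    rintro _ ⟨a, b, c, d, rfl⟩ e
    obtain ⟨k, hk⟩ := S.c56 hb (-e) c
    refine ⟨a, b + e, c, k + d, ?_⟩
    rw [commutatorElement_def, S.X_neg, inv_inv] at hk
    have e6 : S.X 6 c * S.X 5 e = S.X 5 e * (S.X 7 k * S.X 6 c) := by rw [← hk]; group
    rw [S.X_add, S.X_add]
    calc S.X 4 a * S.X 5 b * (S.X 6 c * S.X 7 d) * S.X 5 e
        = S.X 4 a * S.X 5 b * (S.X 6 c * (S.X 7 d * S.X 5 e)) := by group
      _ = S.X 4 a * S.X 5 b * ((S.X 6 c * S.X 5 e) * S.X 7 d) := by rw [← (S.c57 hb e d).eq]; group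
      _ = S.X 4 a * S.X 5 b * (S.X 5 e * (S.X 7 k * S.X 6 c) * S.X 7 d) := by rw [e6]
      _ = _ := by rw [← (S.c67 hb c k).eq]; group
  rcases hr with rfl | rfl | rfl | rfl
  · obtain ⟨a, b, c, d, rfl⟩ := hg
    obtain ⟨k, l, hk⟩ := S.c54 hb b e
    rw [commutatorElement_def, mul_inv_eq_iff_eq_mul, mul_inv_eq_iff_eq_mul] at hk
    have e4 : S.X 4 a * S.X 5 b * (S.X 6 c * S.X 7 d) * S.X 4 e =
        S.X 4 (a + e) * (S.X 6 k * S.X 7 l) * S.X 5 b * (S.X 6 c * S.X 7 d) := by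
      rw [S.X_add, mul_assoc (S.X 4 a * S.X 5 b), ← ((S.c46 hb e c).mul_right (S.c47 hb e d)).eq]
      calc S.X 4 a * S.X 5 b * (S.X 4 e * (S.X 6 c * S.X 7 d))
          = S.X 4 a * (S.X 5 b * S.X 4 e) * (S.X 6 c * S.X 7 d) := by group
        _ = S.X 4 a * ((S.X 6 k * S.X 7 l) * S.X 4 e) * S.X 5 b * (S.X 6 c * S.X 7 d) := by rw [hk]; group
        _ = _ := by rw [← ((S.c46 hb e k).mul_right (S.c47 hb e l)).eq]; group
    rw [e4]
    exact m _ (h5 _ ⟨a + e, 0, k, l, by simp [S.X_zero]⟩ _) _ _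
  · exact h5 g hg e
  · simpa [S.X_zero] using m g hg e 0
  · simpa [S.X_zero] using m g hg 0 e

/-- The positive unipotent subgroup. -/
def U : Subgroup G := Subgroup.closure {g | ∃ r, (r = 4 ∨ r = 5 ∨ r = 6 ∨ r = 7) ∧ ∃ e, g = S.X r e}

include hb in
theorem U_le {g : G} (hg : g ∈ S.U) : S.P g := by
  induction hg using Subgroup.closure_induction_right with
  | one => exact S.one_P
  | mul_right z _ y hy ih =>
    obtain ⟨r, hr, e, rfl⟩ := hy
    exact S.P_mul hb z ih r hr e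
  | mul_inv_cancel z _ y hy ih =>
    obtain ⟨r, hr, e, rfl⟩ := hy
    rw [← S.X_neg]
    exact S.P_mul hb z ih r hr _

include hb in
theorem eq_one_of_central {g : G} (hg : g ∈ S.U)
    (hc : S.ψ g ∈ Subgroup.center (Matrix.symplecticGroup (Fin 2) F)) : g = 1 := by
  obtain ⟨a, b, c, d, rfl⟩ := S.U_le hb hg
  have h0 := congrArg Subtype.val (Subgroup.mem_center_iff.1 hc (rootU F 0 1))
  have h3 := congrArg Subtype.val (Subgroup.mem_center_iff.1 hc (rootU F 3 1))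
  simp only [map_mul, S.ψX, Submonoid.coe_mul, rootU_val, rootE] at h0 h3
  have e0 := fun i j => congrFun (congrFun h0 i) j
  have e3 := fun i j => congrFun (congrFun h3 i) j
  have hb0 : b = 0 := by
    simpa [Matrix.mul_apply, Fintype.sum_sum_type, Fin.sum_univ_two, Matrix.one_apply] using
      e0 (.inr 0) (.inl 1)
  have ha0 : a = 0 := by
    simpa [Matrix.mul_apply, Fintype.sum_sum_type, Fin.sum_univ_two, Matrix.one_apply, hb0] using
      e3 (.inl 1) (.inl 1)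
  have hd0 : d = 0 := by
    simpa [Matrix.mul_apply, Fintype.sum_sum_type, Fin.sum_univ_two, Matrix.one_apply, hb0, ha0] using
      e0 (.inl 0) (.inl 0)
  have hc0 : c = 0 := by
    simpa [Matrix.mul_apply, Fintype.sum_sum_type, Fin.sum_univ_two, Matrix.one_apply, hb0, ha0, hd0] using
      (e0 (.inl 1) (.inl 0)).symm
  simp [ha0, hb0, hc0, hd0, S.X_zero]

/-- Words in the two Weyl elements. -/
def elt : List Bool → G
  | [] => 1
  | c :: w => (if c then S.wa else S.wb) * elt w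

/-- The permutation of a word. -/
def perm : List Bool → Fin 8 → Fin 8
  | [] => id
  | c :: w => (if c then pa else pb) ∘ perm w

/-- One word for each element of the Weyl group. -/
def words : List (List Bool) :=
  [[], [true], [false], [true, false], [false, true], [true, false, true], [false, true, false],
    [true, false, true, false]]

theorem maps_elt (w : List Bool) (r : Fin 8) : S.Maps (S.elt w) r (perm w r) := by
  induction w with
  | nil => exact fun t => ⟨t, by simp [elt, perm]⟩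
  | cons c w ih =>
    intro t
    obtain ⟨t', ht'⟩ := ih t
    obtain ⟨t'', ht''⟩ := (show S.Maps (if c then S.wa else S.wb) (perm w r) ((if c then pa else pb) (perm w r)) by
      cases c
      · simpa using S.maps_wb _
      · simpa using S.maps_wa _) t'
    refine ⟨t'', ?_⟩
    show (if c then S.wa else S.wb) * S.elt w * S.X r t * ((if c then S.wa else S.wb) * S.elt w)⁻¹ = _
    rw [show perm (c :: w) r = (if c then pa else pb) (perm w r) from rfl, ← ht'', ← ht']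
    group

theorem exists_system : ∀ r s : Fin 8, s ≠ r → (s : ℕ) ≠ chevB2.neg r →
    ∃ w ∈ words, (∃ i : Fin 8, 4 ≤ i ∧ perm w i = r) ∧ (∃ i : Fin 8, 4 ≤ i ∧ perm w i = s) ∧
      ∀ e ∈ chevB2.commTerms r s, ∃ i : Fin 8, 4 ≤ i ∧ (perm w i : ℕ) = e.1 := by
  decide +kernel

theorem mem_conj_U {w : List Bool} {i : Fin 8} (hi : 4 ≤ i) (t : F) :
    S.X (perm w i) t ∈ S.U.map (MulAut.conj (S.elt w)).toMonoidHom := by
  choose f hf using S.maps_elt w i
  have hinj : Function.Injective f := fun p q hpq => S.X_inj i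
    (mul_left_cancel (mul_right_cancel ((hf p).trans ((congrArg (S.X _) hpq).trans (hf q).symm))))
  obtain ⟨t, rfl⟩ := Finite.surjective_of_injective hinj t
  exact ⟨S.X i t, Subgroup.subset_closure
    ⟨i, (show ∀ i : Fin 8, 4 ≤ i → i = 4 ∨ i = 5 ∨ i = 6 ∨ i = 7 by decide) i hi, t, rfl⟩, hf t⟩

include hb in
theorem rels : ∀ g ∈ chevB2.steinbergRelsAB F, FreeGroup.lift (fun p : Fin chevB2.nroots × F => S.X p.1 p.2) g = 1 := by
  set L := FreeGroup.lift (fun p : Fin chevB2.nroots × F => S.X p.1 p.2) with hL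
  have hX : ∀ (r : ℕ) (hr : r < chevB2.nroots) (t : F), L (chevB2.stX r t) = S.X ⟨r, hr⟩ t := fun r hr t => by
    simp [hL, ChevalleyDatum.stX, dif_pos hr]; rfl
  rintro g (⟨r, t₁, t₂, hr, rfl⟩ | hg)
  · rw [map_mul, map_mul, map_inv, hX _ hr, hX _ hr, hX _ hr, mul_inv_eq_one, ← S.X_add]
  · have hψ : S.ψ.comp L = Φ := FreeGroup.ext_hom _ _ fun p => by
      rw [MonoidHom.comp_apply, hL, FreeGroup.lift_apply_of, Φ, FreeGroup.lift_apply_of]
      exact S.ψX p.1 p.2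
    have hc : S.ψ (L g) ∈ Subgroup.center _ := by
      rw [← MonoidHom.comp_apply, hψ]
      exact relsAB_central (Or.inr hg)
    obtain ⟨r, s, t, u, hr, hs, hne, hneg, rfl⟩ := hg
    obtain ⟨w, -, ⟨i, hi, hir⟩, ⟨j, hj, hjs⟩, hk⟩ :=
      exists_system ⟨r, hr⟩ ⟨s, hs⟩ (fun h => hne (congrArg Fin.val h)) hneg
    set K := S.U.map (MulAut.conj (S.elt w)).toMonoidHom with hK
    have hmem : ∀ (t : F) (r : ℕ) (hr : r < chevB2.nroots), (∃ i : Fin 8, 4 ≤ i ∧ (perm w i : ℕ) = r) →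
        L (chevB2.stX r t) ∈ K := by
      rintro t r hr ⟨i, hi, e⟩
      rw [hX r hr, ← show perm w i = ⟨r, hr⟩ from Fin.ext e]
      exact S.mem_conj_U hi t
    have hin : L ((chevB2.stX s u)⁻¹ * (chevB2.stX r t)⁻¹ * chevB2.stX s u * chevB2.stX r t *
        (chevB2.stWord (chevB2.commWord F r s t u))⁻¹) ∈ K := by
      have h1 := hmem t r hr ⟨i, hi, congrArg Fin.val hir⟩
      have h2 := hmem u s hs ⟨j, hj, congrArg Fin.val hjs⟩
      have h3 : L (chevB2.stWord (chevB2.commWord F r s t u)) ∈ K := by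
        rw [ChevalleyDatum.stWord, map_list_prod]
        refine list_prod_mem ?_
        intro z hz
        simp only [List.mem_map, ChevalleyDatum.commWord] at hz
        obtain ⟨_, ⟨_, ⟨e, he, rfl⟩, rfl⟩, rfl⟩ := hz
        obtain ⟨k, hk1, hk2⟩ := hk e he
        exact hmem _ _ (hk2 ▸ (perm w k).isLt) ⟨k, hk1, hk2⟩
      simp only [map_mul, map_inv]
      exact mul_mem (mul_mem (mul_mem (mul_mem (inv_mem h2) (inv_mem h1)) h2) h1) (inv_mem h3)
    obtain ⟨z, hz, hzeq⟩ := hin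
    rw [← hzeq] at hc ⊢
    have : z = 1 := S.eq_one_of_central hb hz (by
      have e : S.ψ z = (S.ψ (S.elt w))⁻¹ *
          (S.ψ ((MulAut.conj (S.elt w)).toMonoidHom z) * S.ψ (S.elt w)) := by simp [map_mul, mul_assoc]
      rw [e, ← Subgroup.mem_center_iff.1 hc, inv_mul_cancel_left]
      exact hc)
    rw [this, map_one]

end Cfsg.Agent.KnownA.Pres4.Sys
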